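import Mathlib
import Cfsg.Agent.Lib.OddOrder.HHCore
import Cfsg.Agent.Lib.HallHigman.Commutant

/-!
# Orbits, blocks and commutants

* `exists_orbit_reps_fix`: representatives of the cycles of a permutation `π` with `π ^ p = 1`;
* `block_bound`: an operator permuting the blocks of a decomposition of `V` has few fixed vectors;
* `sq_add_le_comm`: `r ^ 2 + D - r ≤ dim comm(T)`, where `r = dim ker (T - 1)`.
-/

set_option autoImplicit false
set_option linter.unusedSectionVars false

namespace Cfsg.Agent.Lib.Flavell

open Module Cfsg.Agent.Lib.OddOrder.HHCore Cfsg.Agent.Lib.HallHigman.Commutant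

section orbit

/-- Representatives of the cycles of a permutation `π` with `π ^ p = 1`. -/
theorem exists_orbit_reps_fix {Ω : Type*} [Fintype Ω] [DecidableEq Ω] (π : Equiv.Perm Ω) {p : ℕ}
    (hp : p.Prime) (hπ : π ^ p = 1) :
    ∃ (m : ℕ) (r : Fin m → Ω), (∀ c, ∃ q i, c = (π ^ i) (r q)) ∧
      p * m ≤ (p - 1) * (Finset.univ.filter fun c => π c = c).card + Fintype.card Ω := by
  classical
  let S : Setoid Ω := Equiv.Perm.SameCycle.setoid π
  let Q := Quotient S
  haveI : Fintype Q := Fintype.ofFinite _
  let r₀ : Q → Ω := Quotient.out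
  have hr₀ : ∀ q : Q, (Quotient.mk S (r₀ q) : Q) = q := fun q => Quotient.out_eq q
  have hinj : Function.Injective r₀ := fun a b h => by rw [← hr₀ a, ← hr₀ b, h]
  set F := (Finset.univ.filter fun c => π c = c) with hF
  -- fixed classes
  have h1 : (Finset.univ.filter fun q : Q => π (r₀ q) = r₀ q).card ≤ F.card := by
    apply Finset.card_le_card_of_injOn r₀
    · intro q hq
      simp only [Finset.coe_filter, Finset.mem_univ, true_and, Set.mem_setOf_eq] at hq
      simp [hF, hq]
    · exact hinj.injOn
  -- moved classes
  let f : {q : Q // π (r₀ q) ≠ r₀ q} × Fin p → {c : Ω // π c ≠ c} := fun t =>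
    ⟨(π ^ (t.2 : ℕ)) (r₀ t.1.1), by
      intro h
      apply t.1.2
      have e : (π ^ (t.2 : ℕ)) (π (r₀ t.1.1)) = (π ^ (t.2 : ℕ)) (r₀ t.1.1) := by
        rw [← Equiv.Perm.mul_apply, ← pow_succ, pow_succ', Equiv.Perm.mul_apply, h]
      exact (π ^ (t.2 : ℕ)).injective e⟩
  have hf : Function.Injective f := by
    rintro ⟨⟨q, hq⟩, i⟩ ⟨⟨q', hq'⟩, j⟩ h
    have h1 : (π ^ (i : ℕ)) (r₀ q) = (π ^ (j : ℕ)) (r₀ q') := congrArg Subtype.val h
    have hsame : Equiv.Perm.SameCycle π (r₀ q) (r₀ q') := by
      refine ⟨((j : ℕ) : ℤ) * (-1) + (i : ℕ), ?_⟩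
      rw [zpow_add, Equiv.Perm.mul_apply]
      rw [mul_neg, mul_one, zpow_neg, zpow_natCast, zpow_natCast, h1]
      simp
    have hqq : q = q' := by
      rw [← hr₀ q, ← hr₀ q']
      exact Quotient.sound hsame
    subst hqq
    have hij : (i : ℕ) = j := by
      by_contra hij
      rcases lt_or_gt_of_ne hij with hlt | hgt
      · have e2 : (π ^ ((j : ℕ) - i)) (r₀ q) = r₀ q := by
          apply (π ^ (i : ℕ)).injective
          rw [← Equiv.Perm.mul_apply, ← pow_add]
          have : (i : ℕ) + ((j : ℕ) - i) = j := by omega
          rw [this, h1]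
        exact hq (fixed_of_pow_fixed π hp hπ (by omega) (by have := j.2; omega) e2)
      · have e2 : (π ^ ((i : ℕ) - j)) (r₀ q) = r₀ q := by
          apply (π ^ (j : ℕ)).injective
          rw [← Equiv.Perm.mul_apply, ← pow_add]
          have : (j : ℕ) + ((i : ℕ) - j) = i := by omega
          rw [this, h1.symm]
        exact hq (fixed_of_pow_fixed π hp hπ (by omega) (by have := i.2; omega) e2)
    have hi : i = j := Fin.ext hij
    subst hi
    rfl
  have hcard := Fintype.card_le_of_injective f hf
  rw [Fintype.card_prod, Fintype.card_fin] at hcard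
  have h2 : Fintype.card {c : Ω // π c ≠ c} = Fintype.card Ω - F.card := by
    rw [Fintype.card_subtype_compl]
    congr 1
    rw [Fintype.card_subtype]
  have h2' : F.card ≤ Fintype.card Ω := Finset.card_le_univ _
  have h3 : Fintype.card {q : Q // π (r₀ q) ≠ r₀ q} = Fintype.card Q -
      (Finset.univ.filter fun q : Q => π (r₀ q) = r₀ q).card := by
    rw [Fintype.card_subtype_compl]
    congr 1
    rw [Fintype.card_subtype]
  have h3' : (Finset.univ.filter fun q : Q => π (r₀ q) = r₀ q).card ≤ Fintype.card Q :=
    Finset.card_le_univ _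
  let e := Fintype.equivFin Q
  refine ⟨Fintype.card Q, fun q => r₀ (e.symm q), ?_, ?_⟩
  · intro c
    have hc : Equiv.Perm.SameCycle π (r₀ (Quotient.mk S c)) c := by
      have : S.r (r₀ (Quotient.mk S c)) c := Quotient.exact (hr₀ _)
      exact this
    obtain ⟨i, hi⟩ := hc.exists_nat_pow_eq
    refine ⟨e (Quotient.mk S c), i, ?_⟩
    simp only [Equiv.symm_apply_apply]
    exact hi.symm
  · rw [h2, h3] at hcard
    set a := (Finset.univ.filter fun q : Q => π (r₀ q) = r₀ q).card
    set b := Fintype.card Q
    set c := Fintype.card Ω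
    set g := F.card
    obtain ⟨d, hd⟩ : ∃ d, b = a + d := ⟨b - a, by omega⟩
    have hsub : b - a = d := by omega
    rw [hsub] at hcard
    obtain ⟨t, ht⟩ : ∃ t, p = t + 1 := ⟨p - 1, by have := hp.pos; omega⟩
    have hp1 : p - 1 = t := by omega
    rw [hp1, hd, ht]
    have e1 : (t + 1) * (a + d) = (t + 1) * a + ((t + 1) * d) := by ring
    rw [ht, mul_comm] at hcard
    have h5 : (t + 1) * a ≤ (t + 1) * g := Nat.mul_le_mul_left _ h1
    have h6 : (t + 1) * g = t * g + g := by ring
    rw [e1]
    omega

end orbit

section block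

variable {k : Type*} [Field k] {V : Type*} [AddCommGroup V] [Module k V] [FiniteDimensional k V]

/-- An operator permuting the blocks of a direct decomposition has few fixed vectors. -/
theorem block_bound {Ω : Type*} [Fintype Ω] [DecidableEq Ω] (B : Ω → Submodule k V)
    (hind : ∀ v : Ω → V, (∀ c, v c ∈ B c) → ∑ c, v c = 0 → ∀ c, v c = 0)
    (hspan : ∀ v : V, ∃ w : Ω → V, (∀ c, w c ∈ B c) ∧ ∑ c, w c = v)
    (d : ℕ) (hd : ∀ c, finrank k (B c) = d) (T : End k V) (π : Equiv.Perm Ω)
    (hT : ∀ c, ∀ v ∈ B c, T v ∈ B (π c)) {p : ℕ} (hp : p.Prime) (hπ : π ^ p = 1) :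
    finrank k V = Fintype.card Ω * d ∧
      p * finrank k (LinearMap.ker (T - 1)) ≤
        d * ((p - 1) * (Finset.univ.filter fun c => π c = c).card + Fintype.card Ω) := by
  classical
  let Ψ : (∀ c, B c) →ₗ[k] V :=
    { toFun := fun w => ∑ c, (w c : V)
      map_add' := fun a b => by simp [Finset.sum_add_distrib]
      map_smul' := fun a b => by simp [Finset.smul_sum] }
  have hΨ : ∀ w, Ψ w = ∑ c, (w c : V) := fun _ => rfl
  have hinj : Function.Injective Ψ := by
    rw [injective_iff_map_eq_zero]
    intro w hw
    funext c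
    exact Subtype.ext (hind (fun c => (w c : V)) (fun c => (w c).2) hw c)
  have hsurj : Function.Surjective Ψ := by
    intro v
    obtain ⟨w, hw, hwv⟩ := hspan v
    exact ⟨fun c => ⟨w c, hw c⟩, hwv⟩
  let E : (∀ c, B c) ≃ₗ[k] V := LinearEquiv.ofBijective Ψ ⟨hinj, hsurj⟩
  have hE : ∀ w, E w = ∑ c, (w c : V) := fun _ => rfl
  have hEsymm : ∀ v, ∑ c, ((E.symm v c : B c) : V) = v := by
    intro v
    rw [← hE, LinearEquiv.apply_symm_apply]
  constructor
  · rw [← LinearEquiv.finrank_eq E, Module.finrank_pi_fintype]
    simp [hd]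
  -- the key relation
  have hrel : ∀ v, T v = v → ∀ c, ((E.symm v (π c) : B (π c)) : V) = T (E.symm v c) := by
    intro v hv
    have h1 : ∑ c', (((E.symm v c' : B c') : V) - T (E.symm v (π.symm c'))) = 0 := by
      rw [Finset.sum_sub_distrib, Equiv.sum_comp π.symm (fun c => T ((E.symm v c : B c) : V)),
        ← map_sum, hEsymm, hv, sub_self]
    intro c
    have := hind (fun c' => ((E.symm v c' : B c') : V) - T (E.symm v (π.symm c')))
      (fun c' => by
        refine Submodule.sub_mem _ (E.symm v c').2 ?_
        have := hT _ _ (E.symm v (π.symm c')).2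
        rwa [Equiv.apply_symm_apply] at this) h1 (π c)
    have h' : ((E.symm v (π c) : B (π c)) : V) - T (E.symm v (π.symm (π c))) = 0 := this
    rw [Equiv.symm_apply_apply] at h'
    exact sub_eq_zero.mp h'
  obtain ⟨m, r, hr, hcount⟩ := exists_orbit_reps_fix π hp hπ
  let Φ : LinearMap.ker (T - 1) →ₗ[k] (∀ j : Fin m, B (r j)) :=
    LinearMap.pi fun j => (LinearMap.proj (r j)) ∘ₗ E.symm.toLinearMap ∘ₗ (LinearMap.ker (T - 1)).subtype
  have hΦ : Function.Injective Φ := by
    rw [injective_iff_map_eq_zero]
    rintro ⟨v, hv⟩ h0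
    have hv' : T v = v := by
      have : (T - 1) v = 0 := hv
      simpa [sub_eq_zero] using this
    have h1 : ∀ j, E.symm v (r j) = 0 := by
      intro j
      have := congrFun h0 j
      simpa [Φ] using this
    have h2 : ∀ (i : ℕ) j c, c = (π ^ i) (r j) → ((E.symm v c : B c) : V) = 0 := by
      intro i j
      induction i with
      | zero =>
        intro c hc
        have hc' : c = r j := by simpa using hc
        subst hc'
        rw [h1 j]
        rfl
      | succ i ih =>
        intro c hc
        have hc' : c = π ((π ^ i) (r j)) := by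
          rw [hc, pow_succ', Equiv.Perm.mul_apply]
        subst hc'
        rw [hrel v hv', ih _ rfl, map_zero]
    have h3 : E.symm v = 0 := by
      funext c
      obtain ⟨q, i, hc⟩ := hr c
      exact Subtype.ext (h2 i q c hc)
    have h4 : v = 0 := by
      have := congrArg E h3
      simpa using this
    exact Subtype.ext h4
  have hle := LinearMap.finrank_le_finrank_of_injective hΦ
  rw [Module.finrank_pi_fintype] at hle
  simp only [hd, Finset.sum_const, Finset.card_univ, Fintype.card_fin, smul_eq_mul] at hle
  calc p * finrank k (LinearMap.ker (T - 1)) ≤ p * (m * d) := Nat.mul_le_mul_left _ hle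
    _ = d * (p * m) := by ring
    _ ≤ _ := Nat.mul_le_mul_left _ hcount

end block

section comm

variable {k : Type*} [Field k] {W : Type*} [AddCommGroup W] [Module k W] [FiniteDimensional k W]

theorem finrank_prod_sub {W₁ X : Type*} [AddCommGroup W₁] [Module k W₁] [FiniteDimensional k W₁]
    [AddCommGroup X] [Module k X] [FiniteDimensional k X] (S : Submodule k (End k W₁)) :
    finrank k (X × S) = finrank k X + finrank k S := Module.finrank_prod

set_option backward.isDefEq.respectTransparency false in
/-- The commutant of `N` versus the commutant of the restriction of `N` to its range. -/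
theorem comm_step (N : End k W) :
    ∃ (hI : ∀ w ∈ LinearMap.range N, N w ∈ LinearMap.range N),
      finrank k (LinearMap.ker N) * finrank k (LinearMap.ker N) +
        finrank k (comm (N.restrict hI)) ≤ finrank k (comm N) := by
  classical
  have hI : ∀ w ∈ LinearMap.range N, N w ∈ LinearMap.range N := fun w _ => ⟨w, rfl⟩
  refine ⟨hI, ?_⟩
  set I := LinearMap.range N with hIdef
  set R := LinearMap.ker N with hR
  obtain ⟨C', hC'⟩ := Submodule.exists_isCompl I
  set N' := N.restrict hI with hN'
  -- a section of `N`
  obtain ⟨s, hs⟩ := LinearMap.exists_rightInverse_of_surjective N.rangeRestrict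
    (LinearMap.range_rangeRestrict N)
  have hsapp : ∀ y : I, N (s y) = y := by
    intro y
    have := congrArg (fun f : I →ₗ[k] I => ((f y : I) : W)) hs
    exact this
  let prI : W →ₗ[k] I := Submodule.linearProjOfIsCompl I C' hC'
  let prC : W →ₗ[k] C' := Submodule.linearProjOfIsCompl C' I hC'.symm
  have hsplit : ∀ w : W, ((prI w : I) : W) + (prC w : C') = w := by
    intro w
    exact Submodule.IsCompl.projection_add_projection_eq_self hC' w
  have hprI : ∀ y : I, prI y = y := fun y => Submodule.linearProjOfIsCompl_apply_left hC' y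
  have hprC : ∀ y : I, prC y = 0 := by
    intro y
    exact Submodule.linearProjOfIsCompl_apply_right hC'.symm y
  have hprCc : ∀ y : C', prC y = y := fun y => Submodule.linearProjOfIsCompl_apply_left hC'.symm y
  have hNI : ∀ w, N w ∈ I := fun w => ⟨w, rfl⟩
  -- `N ∘ ι : C' → I`
  let nC : W →ₗ[k] I := N.rangeRestrict
  have hnC : ∀ w, ((nC w : I) : W) = N w := fun _ => rfl
  let lift : comm N' →ₗ[k] End k W :=
    { toFun := fun E' => I.subtype ∘ₗ (E' : End k I) ∘ₗ prI +
        s ∘ₗ (E' : End k I) ∘ₗ nC ∘ₗ C'.subtype ∘ₗ prC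
      map_add' := by
        intro a b
        ext w
        have e : ∀ y : I, ((a + b : comm N') : End k I) y = (a : End k I) y + (b : End k I) y :=
          fun _ => rfl
        simp only [LinearMap.add_apply, LinearMap.comp_apply, Submodule.subtype_apply, map_add,
          Submodule.coe_add]
        have e2 : ((a : End k I) + (b : End k I)) (nC (prC w : C')) =
            (a : End k I) (nC (prC w : C')) + (b : End k I) (nC (prC w : C')) := rfl
        rw [e2, map_add]
        abel
      map_smul' := by
        intro c a
        ext w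
        simp [LinearMap.add_apply, smul_add]
        exact map_smul s c _ }
  have hliftapp : ∀ (E' : comm N') w, lift E' w = (((E' : End k I) (prI w) : I) : W) +
      s ((E' : End k I) (nC (prC w : C'))) := fun _ _ => rfl
  have hcommE : ∀ (E' : comm N') (y : I), (E' : End k I) (N' y) = N' ((E' : End k I) y) := by
    intro E' y
    have := congrArg (fun f : End k I => f y) (mem_comm.mp E'.2)
    simpa [Module.End.mul_apply] using this
  have hN'app : ∀ y : I, ((N' y : I) : W) = N y := fun _ => rfl
  have hliftI : ∀ (E' : comm N') (y : I), lift E' y = (E' : End k I) y := by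
    intro E' y
    rw [hliftapp, hprI, hprC]
    simp
  have hNlift : ∀ (E' : comm N') w, N (lift E' w) = (((E' : End k I) (nC w) : I) : W) := by
    intro E' w
    rw [hliftapp, map_add, hsapp, ← hN'app, ← hcommE]
    have h1 : nC w = N' (prI w) + nC (prC w : C') := by
      apply Subtype.ext
      have h2 := hsplit w
      rw [hnC]
      conv_lhs => rw [← h2, map_add]
      rfl
    rw [h1, map_add]
    rfl
  have hliftN : ∀ (E' : comm N') w, lift E' (N w) = (((E' : End k I) (nC w) : I) : W) := by
    intro E' w
    have := hliftI E' (nC w)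
    rw [hnC] at this
    exact this
  -- the homs
  let hom : (C' →ₗ[k] R) →ₗ[k] End k W :=
    { toFun := fun h => R.subtype ∘ₗ h ∘ₗ prC
      map_add' := by
        intro a b
        ext w
        simp
      map_smul' := by
        intro c a
        ext w
        simp }
  have homapp : ∀ (h : C' →ₗ[k] R) w, hom h w = ((h (prC w) : R) : W) := fun _ _ => rfl
  let Θ : ((C' →ₗ[k] R) × comm N') →ₗ[k] End k W := hom.coprod lift
  have hΘapp : ∀ t, Θ t = hom t.1 + lift t.2 := fun t => rfl
  have hΘmem : ∀ t, Θ t ∈ comm N := by
    rintro ⟨h, E'⟩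
    rw [mem_comm]
    ext w
    simp only [hΘapp, Module.End.mul_apply, LinearMap.add_apply, map_add]
    rw [homapp, homapp, hliftN, hNlift]
    have e1 : prC (N w) = 0 := hprC ⟨N w, hNI w⟩
    rw [e1, map_zero]
    have e2 : N ((h (prC w) : R) : W) = 0 := (h (prC w)).2
    rw [e2]
    simp
  have hΘinj : Function.Injective Θ := by
    rw [injective_iff_map_eq_zero]
    rintro ⟨h, E'⟩ h0
    rw [hΘapp] at h0
    have hE' : E' = 0 := by
      apply Subtype.ext
      ext y
      have h1 := congrArg (fun f : End k W => f y) h0
      simp only [LinearMap.add_apply, LinearMap.zero_apply] at h1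
      rw [homapp, hliftI, hprC, map_zero] at h1
      simpa using h1
    subst hE'
    have hh : h = 0 := by
      ext y
      have h1 := congrArg (fun f : End k W => f y) h0
      simp only [LinearMap.add_apply, LinearMap.zero_apply] at h1
      rw [homapp, hprCc] at h1
      have e : lift 0 (y : W) = 0 := by
        have : lift (0 : comm N') = 0 := map_zero lift
        rw [this]
        rfl
      rw [e, add_zero] at h1
      simpa using h1
    subst hh
    rfl
  -- dimensions
  have hCdim : finrank k C' = finrank k R := by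
    have h1 : finrank k I + finrank k C' = finrank k W := Submodule.finrank_add_eq_of_isCompl hC'
    have h2 : finrank k I + finrank k R = finrank k W := LinearMap.finrank_range_add_finrank_ker N
    omega
  have hle : LinearMap.range Θ ≤ comm N := by
    rintro _ ⟨t, rfl⟩
    exact hΘmem t
  have h1 := LinearMap.finrank_range_of_inj hΘinj
  have h2 := Submodule.finrank_mono hle
  rw [h1, finrank_prod_sub, Module.finrank_linearMap, hCdim] at h2
  exact h2

/-- The commutant of any operator has dimension at least that of the space. -/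
theorem finrank_le_comm [IsAlgClosed k] : ∀ (n : ℕ) {W : Type _} [AddCommGroup W] [Module k W]
    [FiniteDimensional k W] (N : End k W), finrank k W = n → n ≤ finrank k (comm N) := by
  intro n
  induction n using Nat.strong_induction_on with
  | _ n ih =>
    intro W _ _ _ N hn
    by_cases hn0 : n = 0
    · omega
    haveI : Nontrivial W := Module.nontrivial_of_finrank_pos (R := k) (by omega)
    obtain ⟨μ, hμ⟩ := Module.End.exists_eigenvalue N
    set N₁ : End k W := N - μ • 1 with hN₁
    have hcomm : comm N₁ = comm N := by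
      ext E
      simp only [mem_comm, hN₁, sub_mul, mul_sub, smul_mul_assoc, mul_smul_comm, one_mul, mul_one,
        sub_left_inj]
    have hker : LinearMap.ker N₁ ≠ ⊥ := by
      have : Module.End.eigenspace N μ = LinearMap.ker N₁ := by
        rw [Module.End.eigenspace_def]
      rw [← this]
      exact hμ
    have hr : 0 < finrank k (LinearMap.ker N₁) := by
      rw [Module.finrank_pos_iff]
      exact Submodule.nontrivial_iff_ne_bot.mpr hker
    obtain ⟨hI, hle⟩ := comm_step N₁
    have hrank := LinearMap.finrank_range_add_finrank_ker N₁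
    have h1 := ih (finrank k (LinearMap.range N₁)) (by omega) (N₁.restrict hI) rfl
    rw [← hcomm]
    nlinarith

/-- The key inequality on the commutant. -/
theorem sq_add_le_comm [IsAlgClosed k] (T : End k W) :
    finrank k (LinearMap.ker (T - 1)) * finrank k (LinearMap.ker (T - 1)) + finrank k W ≤
      finrank k (comm T) + finrank k (LinearMap.ker (T - 1)) := by
  obtain ⟨hI, hle⟩ := comm_step (T - 1)
  have hrank := LinearMap.finrank_range_add_finrank_ker (T - 1)
  have h1 := finrank_le_comm (finrank k (LinearMap.range (T - 1))) ((T - 1).restrict hI) rfl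
  rw [comm_sub_one] at hle
  omega

end comm

end Cfsg.Agent.Lib.Flavell
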