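import Mathlib
import Cfsg.Agent.Lib.OddOrder.HHCore
import Cfsg.Agent.Lib.HallHigman.Core
import Cfsg.Agent.Lib.Gross.Type
import Cfsg.Agent.Lib.Flavell.Blocks

/-!
# Fixed vectors of an operator normalising a Heisenberg type representation

`ρ` is a representation of Heisenberg type of `Y`, `C` its scalar subgroup, `T` an operator with `T ^ p = 1`
inducing an automorphism `σ` of `Y` which is trivial on `C`.  If `σ` has few fixed points on `Y / C`,
`T` has few fixed vectors.
-/

set_option autoImplicit false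
set_option linter.unusedSectionVars false
set_option linter.style.haveILetI false

namespace Cfsg.Agent.Lib.Flavell

open Module Cfsg.Agent.Lib.OddOrder.HHCore Cfsg.Agent.Lib.HallHigman.Commutant
open Cfsg.Agent.Lib.HallHigman.Core

section general

variable {k : Type*} [Field k] {W : Type*} [AddCommGroup W] [Module k W] [FiniteDimensional k W]

/-- Fixed vectors on a submodule and on the quotient. -/
theorem finrank_ker_le_sub_add_quot (T : End k W) (U : Submodule k W) (hU : ∀ v ∈ U, T v ∈ U) :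
    finrank k (LinearMap.ker (T - 1)) ≤ finrank k (LinearMap.ker (T.restrict hU - 1)) +
      finrank k (LinearMap.ker (U.mapQ U T hU - 1)) := by
  classical
  set F := LinearMap.ker (T - 1) with hF
  have hFmem : ∀ v, v ∈ F ↔ T v = v := by
    intro v
    simp [hF, LinearMap.mem_ker, sub_eq_zero]
  let φ : F →ₗ[k] LinearMap.ker (U.mapQ U T hU - 1) :=
    (U.mkQ ∘ₗ F.subtype).codRestrict _ (by
      rintro ⟨v, hv⟩
      have h1 : T v = v := (hFmem v).mp hv
      simp only [LinearMap.mem_ker, LinearMap.sub_apply, Module.End.one_apply, LinearMap.comp_apply,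
        Submodule.subtype_apply, Submodule.mkQ_apply, sub_eq_zero]
      rw [Submodule.mapQ_apply, h1])
  have h1 := LinearMap.finrank_range_add_finrank_ker φ
  have h2 : finrank k (LinearMap.range φ) ≤ finrank k (LinearMap.ker (U.mapQ U T hU - 1)) :=
    Submodule.finrank_le _
  let ψ : LinearMap.ker φ →ₗ[k] LinearMap.ker (T.restrict hU - 1) :=
    { toFun := fun v => ⟨⟨v.1.1, by
        have h3 : φ v.1 = 0 := v.2
        have h4 : (Submodule.Quotient.mk (v.1.1) : W ⧸ U) = 0 := congrArg Subtype.val h3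
        exact (Submodule.Quotient.mk_eq_zero U).mp h4⟩, by
        have h5 : T v.1.1 = v.1.1 := (hFmem _).mp v.1.2
        simp only [LinearMap.mem_ker, LinearMap.sub_apply, Module.End.one_apply, sub_eq_zero]
        exact Subtype.ext h5⟩
      map_add' := fun _ _ => rfl
      map_smul' := fun _ _ => rfl }
  have hψ : Function.Injective ψ := by
    intro a b hab
    have h3 := congrArg (fun z => ((z.1 : U) : W)) hab
    exact Subtype.ext (Subtype.ext h3)
  have h3 := LinearMap.finrank_le_finrank_of_injective hψ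
  omega

end general

section quot

variable {k : Type*} [Field k] {W : Type*} [AddCommGroup W] [Module k W]
variable {Y : Type*} [Group Y]

/-- The quotient of a representation by an invariant subspace. -/
def quotRep (ρ : Y →* End k W) (U : Submodule k W) (hU : ∀ y, ∀ v ∈ U, ρ y v ∈ U) :
    Y →* End k (W ⧸ U) where
  toFun y := U.mapQ U (ρ y) (hU y)
  map_one' := by
    ext v
    simp
  map_mul' a b := by
    ext v
    simp

@[simp] theorem quotRep_mk (ρ : Y →* End k W) (U : Submodule k W) (hU : ∀ y, ∀ v ∈ U, ρ y v ∈ U) (y : Y)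
    (v : W) : quotRep ρ U hU y (Submodule.Quotient.mk v) = Submodule.Quotient.mk (ρ y v) := rfl

end quot

section heis

variable {k : Type*} [Field k] {W : Type*} [AddCommGroup W] [Module k W]
variable {Y : Type*} [Group Y] [Fintype Y]

/-- The restriction of a Heisenberg type representation to a nonzero invariant subspace. -/
theorem heis_res {ρ : Y →* End k W} {C : Subgroup Y} (h : IsHeis ρ C) (U : Submodule k W)
    (hU : ∀ y, ∀ v ∈ U, ρ y v ∈ U) (hU0 : U ≠ ⊥) : IsHeis (resRep ρ U hU) C := by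
  haveI : Nontrivial U := Submodule.nontrivial_iff_ne_bot.mpr hU0
  refine ⟨?_, h.comm, ?_⟩
  · intro c hc
    obtain ⟨t, ht⟩ := h.scal c hc
    refine ⟨t, ?_⟩
    ext v
    simp [ht]
  · intro y hy
    obtain ⟨u, hu⟩ := h.nd y hy
    refine ⟨u, ?_⟩
    obtain ⟨t, ht⟩ := h.scal _ (h.comm u y)
    intro h1
    apply hu
    obtain ⟨v, hv⟩ := exists_ne (0 : U)
    have h2 := congrArg (fun f : End k U => ((f v : U) : W)) h1
    simp only [resRep_apply, Module.End.one_apply, ht, LinearMap.smul_apply] at h2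
    have h3 : (t - 1) • (v : W) = 0 := by
      rw [sub_smul, one_smul, h2, sub_self]
    have h4 : t - 1 = 0 := by
      apply (smul_eq_zero.mp h3).resolve_right
      intro h5
      exact hv (Subtype.ext h5)
    have h5 : t = 1 := sub_eq_zero.mp h4
    rw [ht, h5, one_smul]

/-- The quotient of a Heisenberg type representation by a proper invariant subspace. -/
theorem heis_quot {ρ : Y →* End k W} {C : Subgroup Y} (h : IsHeis ρ C) (U : Submodule k W)
    (hU : ∀ y, ∀ v ∈ U, ρ y v ∈ U) [Nontrivial (W ⧸ U)] : IsHeis (quotRep ρ U hU) C := by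
  refine ⟨?_, h.comm, ?_⟩
  · intro c hc
    obtain ⟨t, ht⟩ := h.scal c hc
    refine ⟨t, ?_⟩
    ext v
    simp [ht]
  · intro y hy
    obtain ⟨u, hu⟩ := h.nd y hy
    refine ⟨u, ?_⟩
    obtain ⟨t, ht⟩ := h.scal _ (h.comm u y)
    intro h1
    apply hu
    obtain ⟨v, hv⟩ := exists_ne (0 : W ⧸ U)
    have h5 : t = 1 := by
      have h2 := congrArg (fun f : End k (W ⧸ U) => f v) h1
      obtain ⟨v', rfl⟩ := Submodule.Quotient.mk_surjective _ v
      simp only [Module.End.one_apply, quotRep_mk, ht, LinearMap.smul_apply, Submodule.Quotient.mk_smul] at h2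
      have h3 : (t - 1) • (Submodule.Quotient.mk v' : W ⧸ U) = 0 := by
        rw [sub_smul, one_smul, h2, sub_self]
      exact sub_eq_zero.mp ((smul_eq_zero.mp h3).resolve_right hv)
    rw [ht, h5, one_smul]

/-- A minimal invariant subspace inside a given nonzero invariant subspace. -/
theorem exists_simple_le [FiniteDimensional k W] {ρ : Y →* End k W} {C : Subgroup Y} (h : IsHeis ρ C)
    (U₁ : Submodule k W) (hU₁ : ∀ y, ∀ v ∈ U₁, ρ y v ∈ U₁) (hne : U₁ ≠ ⊥) :
    ∃ U : Submodule k W, U ≤ U₁ ∧ U ≠ ⊥ ∧ ∃ hU : ∀ y, ∀ v ∈ U, ρ y v ∈ U,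
      IsHeis (resRep ρ U hU) C ∧ IsSimpleRep (resRep ρ U hU) := by
  classical
  let F : Set (Submodule k W) := {U | U ≤ U₁ ∧ U ≠ ⊥ ∧ ∀ y, ∀ v ∈ U, ρ y v ∈ U}
  have hFne : F.Nonempty := ⟨U₁, le_rfl, hne, hU₁⟩
  obtain ⟨U, hU, hUmin⟩ := (wellFounded_lt (α := Submodule k W)).has_min F hFne
  obtain ⟨hUle, hU0, hUinv⟩ := hU
  haveI : Nontrivial U := Submodule.nontrivial_iff_ne_bot.mpr hU0
  refine ⟨U, hUle, hU0, hUinv, heis_res h U hUinv hU0, ?_⟩
  intro U₀ hinv hne
  have h1 : U₀.map U.subtype ≤ U := by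
    rintro _ ⟨v, _, rfl⟩
    exact v.2
  have h2 : U₀.map U.subtype ≠ ⊥ := by
    intro h3
    apply hne
    rw [eq_bot_iff]
    intro v hv
    have h4 : (v : W) ∈ U₀.map U.subtype := ⟨v, hv, rfl⟩
    rw [h3, Submodule.mem_bot] at h4
    rw [Submodule.mem_bot]
    exact Subtype.ext h4
  have h3 : U₀.map U.subtype = U := by
    by_contra hcon
    exact hUmin _ ⟨h1.trans hUle, h2, by
      rintro y _ ⟨v, hv, rfl⟩
      exact ⟨resRep ρ U hUinv y v, hinv y v hv, rfl⟩⟩ (lt_of_le_of_ne h1 hcon)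
  rw [eq_top_iff]
  intro v _
  have h4 : (v : W) ∈ U₀.map U.subtype := by
    rw [h3]
    exact v.2
  obtain ⟨v', hv', hvv⟩ := h4
  have : v' = v := Subtype.ext hvv
  rwa [← this]

/-- An element of the span of `ρ(Y)` vanishing on a nonzero invariant subspace is zero. -/
theorem span_vanish [FiniteDimensional k W] [IsAlgClosed k] {ρ : Y →* End k W} {C : Subgroup Y}
    (h : IsHeis ρ C) (hY : (Fintype.card Y : k) ≠ 0) {a : End k W}
    (ha : a ∈ Submodule.span k (Set.range ρ)) (U₁ : Submodule k W) (hU₁ : ∀ y, ∀ v ∈ U₁, ρ y v ∈ U₁)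
    (hne : U₁ ≠ ⊥) (hvan : ∀ v ∈ U₁, a v = 0) : a = 0 := by
  classical
  obtain ⟨v₀, -, hv₀⟩ := Submodule.exists_mem_ne_zero_of_ne_bot hne
  haveI : Nontrivial W := ⟨⟨v₀, 0, hv₀⟩⟩
  haveI hn : C.Normal := h.normal
  haveI : Fintype (Y ⧸ C) := Fintype.ofFinite _
  obtain ⟨U, hUle, hU0, hU, hH, hS⟩ := exists_simple_le h U₁ hU₁ hne
  haveI : Nontrivial U := Submodule.nontrivial_iff_ne_bot.mpr hU0
  let e : Y ⧸ C → Y := Quotient.out
  have he : ∀ c, ((e c : Y) : Y ⧸ C) = c := fun c => QuotientGroup.out_eq' c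
  have hmem : ∀ y : Y, ρ y ∈ Submodule.span k (Set.range fun c => ρ (e c)) := by
    intro y
    have h1 : (e (y : Y ⧸ C))⁻¹ * y ∈ C := (QuotientGroup.eq (s := C) (a := e (y : Y ⧸ C)) (b := y)).mp (he _)
    obtain ⟨s, hs'⟩ := h.scal _ h1
    have h2 : y = e (y : Y ⧸ C) * ((e (y : Y ⧸ C))⁻¹ * y) := by group
    rw [h2, map_mul, hs', mul_smul_comm, mul_one]
    apply Submodule.smul_mem
    apply Submodule.subset_span
    have h3 : ((e (y : Y ⧸ C) * ((e (y : Y ⧸ C))⁻¹ * y) : Y) : Y ⧸ C) = (y : Y ⧸ C) := by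
      rw [← h2]
    exact ⟨y, rfl⟩
  have hle : Submodule.span k (Set.range ρ) ≤ Submodule.span k (Set.range fun c => ρ (e c)) := by
    apply Submodule.span_le.mpr
    rintro _ ⟨y, rfl⟩
    exact hmem y
  obtain ⟨g, hg⟩ := (Submodule.mem_span_range_iff_exists_fun k).mp (hle ha)
  have hind := section_indep hH hS hY e he
  have hg0 : ∀ c, g c = 0 := by
    rw [Fintype.linearIndependent_iff] at hind
    apply hind
    ext v
    have h1 : a (v : W) = 0 := hvan v (hUle v.2)
    rw [← hg] at h1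
    simp only [LinearMap.sum_apply, LinearMap.smul_apply, LinearMap.zero_apply] at h1 ⊢
    simpa using h1
  rw [← hg]
  simp [hg0]

/-- The Weil type operators. -/
noncomputable def tau (ρ : Y →* End k W) (σ : Y ≃* Y) (w : Y) : End k W :=
  ∑ y : Y, ρ (σ y * w * y⁻¹)

theorem tau_mem (ρ : Y →* End k W) (σ : Y ≃* Y) (w : Y) : tau ρ σ w ∈ Submodule.span k (Set.range ρ) :=
  Submodule.sum_mem _ fun _ _ => Submodule.subset_span ⟨_, rfl⟩

theorem tau_intertwine (ρ : Y →* End k W) (σ : Y ≃* Y) (w u : Y) :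
    tau ρ σ w * ρ u = ρ (σ u) * tau ρ σ w := by
  unfold tau
  rw [Finset.sum_mul, Finset.mul_sum]
  refine (Fintype.sum_equiv (Equiv.mulLeft u⁻¹) _ _ (fun y => ?_))
  simp only [Equiv.coe_mulLeft, ← map_mul, map_mul σ, map_inv]
  congr 1
  group

theorem sum_tau {ρ : Y →* End k W} {C : Subgroup Y} (h : IsHeis ρ C) (σ : Y ≃* Y)
    (hσC : ∀ c ∈ C, ρ (σ c) = ρ c) [DecidablePred (· ∈ C)] :
    ∑ w : Y, tau ρ σ w * ρ w⁻¹ = ((Fintype.card C * Fintype.card Y : ℕ) : k) • 1 := by
  unfold tau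
  simp only [Finset.sum_mul]
  rw [Finset.sum_comm]
  have h1 : ∀ y : Y, ∑ w : Y, ρ (σ y * w * y⁻¹) * ρ w⁻¹ = ρ (σ y) * ∑ w : Y, ρ (w * y⁻¹ * w⁻¹) := by
    intro y
    rw [Finset.mul_sum]
    refine Finset.sum_congr rfl fun w _ => ?_
    simp only [← map_mul]
    congr 1
    group
  simp only [h1]
  have h2 : ∀ y : Y, ρ (σ y) * ∑ w : Y, ρ (w * y⁻¹ * w⁻¹) =
      if y ∈ C then ((Fintype.card Y : ℕ) : k) • 1 else 0 := by
    intro y
    split_ifs with hy
    · obtain ⟨s, hs⟩ := h.scal _ (C.inv_mem hy)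
      have e : ∀ w : Y, ρ (w * y⁻¹ * w⁻¹) = ρ y⁻¹ := by
        intro w
        rw [map_mul, map_mul, hs, mul_smul_comm, mul_one, smul_mul_assoc, ← map_mul, mul_inv_cancel,
          map_one]
      simp only [e, Finset.sum_const, Finset.card_univ]
      rw [hσC y hy, ← Nat.cast_smul_eq_nsmul k, mul_smul_comm, ← map_mul, mul_inv_cancel, map_one]
    · rw [sum_conj_eq_zero h (fun hc => hy (by simpa using C.inv_mem hc)), mul_zero]
  simp only [h2]
  rw [Finset.sum_ite, Finset.sum_const_zero, add_zero, Finset.sum_const, Nat.cast_mul, mul_smul]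
  have : (Finset.univ.filter (· ∈ C)).card = Fintype.card C := by
    rw [Fintype.card_subtype]
  rw [this]
  exact (Nat.cast_smul_eq_nsmul k _ _).symm

/-- There is a nonzero `T`-invariant subspace, simple under `ρ`. -/
theorem exists_invariant_simple' [IsAlgClosed k] [FiniteDimensional k W] [Nontrivial W]
    {ρ : Y →* End k W} {C : Subgroup Y} (h : IsHeis ρ C) (hY : (Fintype.card Y : k) ≠ 0)
    (T : End k W) (σ : Y ≃* Y) (hTσ : ∀ u, T * ρ u = ρ (σ u) * T)
    (hσC : ∀ c ∈ C, ρ (σ c) = ρ c) :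
    ∃ U : Submodule k W, U ≠ ⊥ ∧ (∀ v ∈ U, T v ∈ U) ∧ ∃ hU : ∀ y, ∀ v ∈ U, ρ y v ∈ U,
      IsHeis (resRep ρ U hU) C ∧ IsSimpleRep (resRep ρ U hU) := by
  classical
  have hN : ((Fintype.card C * Fintype.card Y : ℕ) : k) ≠ 0 := by
    rw [Nat.cast_mul]
    exact mul_ne_zero (natCast_card_ne_zero hY) hY
  -- a nonzero `tau`
  obtain ⟨w₀, hw₀⟩ : ∃ w, tau ρ σ w ≠ 0 := by
    by_contra hcon
    push Not at hcon
    have h1 := sum_tau h σ hσC
    simp only [hcon, zero_mul, Finset.sum_const_zero] at h1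
    have h2 : (1 : End k W) = 0 := by
      have h3 := (smul_eq_zero.mp h1.symm).resolve_left hN
      exact h3
    exact one_ne_zero h2
  set τ := tau ρ σ w₀ with hτ
  have hτmem : τ ∈ Submodule.span k (Set.range ρ) := tau_mem ρ σ w₀
  have hτρ : ∀ u, τ * ρ u = ρ (σ u) * τ := tau_intertwine ρ σ w₀
  -- `τ` is injective
  have hinj : Function.Injective τ := by
    rw [injective_iff_map_eq_zero]
    intro v hv
    by_contra hv0
    apply hw₀
    refine span_vanish h hY hτmem (LinearMap.ker τ) ?_ ?_ (fun v hv => hv)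
    · intro y u hu
      have h1 := congrArg (fun f : End k W => f u) (hτρ y)
      simp only [Module.End.mul_apply] at h1
      rw [LinearMap.mem_ker, h1, LinearMap.mem_ker.mp hu, map_zero]
    · intro hbot
      have : v ∈ LinearMap.ker τ := hv
      rw [hbot, Submodule.mem_bot] at this
      exact hv0 this
  let τe : W ≃ₗ[k] W := LinearEquiv.ofInjectiveEndo τ hinj
  let τ' : End k W := τe.symm.toLinearMap
  have hττ' : ∀ v, τ (τ' v) = v := fun v => τe.apply_symm_apply v
  have hτ'τ : ∀ v, τ' (τ v) = v := fun v => τe.symm_apply_apply v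
  have hS₀comm : ∀ u, (τ' * T) * ρ u = ρ u * (τ' * T) := by
    intro u
    ext v
    simp only [Module.End.mul_apply]
    have h1 := congrArg (fun f : End k W => f v) (hTσ u)
    simp only [Module.End.mul_apply] at h1
    rw [h1]
    have h2 := congrArg (fun f : End k W => f (τ' (T v))) (hτρ u)
    simp only [Module.End.mul_apply] at h2
    rw [hττ'] at h2
    rw [← h2, hτ'τ]
  obtain ⟨μ, hμ⟩ := Module.End.exists_eigenvalue (τ' * T)
  set E := Module.End.eigenspace (τ' * T) μ with hE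
  have hEinv : ∀ y, ∀ v ∈ E, ρ y v ∈ E := by
    intro y v hv
    rw [hE, Module.End.mem_eigenspace_iff] at hv ⊢
    have := congrArg (fun f : End k W => f v) (hS₀comm y)
    simp only [Module.End.mul_apply] at this hv ⊢
    rw [this, hv, map_smul]
  have hEne : E ≠ ⊥ := hμ
  obtain ⟨U, hUE, hU0, hUinv, hH, hS⟩ := exists_simple_le h E hEinv hEne
  refine ⟨U, hU0, ?_, hUinv, hH, hS⟩
  intro v hv
  have h1 : τ' (T v) = μ • v := by
    have := hUE hv
    rw [hE, Module.End.mem_eigenspace_iff] at this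
    exact this
  have h2 : T v = τ (τ' (T v)) := (hττ' _).symm
  rw [h2, h1, map_smul]
  apply U.smul_mem
  rw [hτ, tau, LinearMap.sum_apply]
  exact U.sum_mem fun y _ => hUinv _ _ hv

end heis

end Cfsg.Agent.Lib.Flavell
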