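import Mathlib
import Cfsg.Agent.Lib.Flavell.Heis

/-!
# Fixed vectors of an operator normalising a Heisenberg type representation: the bound
-/

set_option autoImplicit false
set_option linter.unusedSectionVars false
set_option linter.style.haveILetI false

namespace Cfsg.Agent.Lib.Flavell

open Module Cfsg.Agent.Lib.OddOrder.HHCore Cfsg.Agent.Lib.HallHigman.Commutant
open Cfsg.Agent.Lib.HallHigman.Core Cfsg.Agent.Lib.Gross.Type

variable {k : Type*} [Field k] {W : Type*} [AddCommGroup W] [Module k W]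
variable {Y : Type*} [Group Y] [Fintype Y]

/-- The permutation of the quotient induced by an automorphism. -/
noncomputable def permQ (C : Subgroup Y) [C.Normal] (σ : MulAut Y) (hσC : ∀ c, σ c ∈ C ↔ c ∈ C) :
    Equiv.Perm (Y ⧸ C) := (permOf C σ hσC).toEquiv

theorem permQ_mk (C : Subgroup Y) [C.Normal] (σ : MulAut Y) (hσC : ∀ c, σ c ∈ C ↔ c ∈ C) (g : Y) :
    permQ C σ hσC (g : Y ⧸ C) = ((σ g : Y) : Y ⧸ C) := permOf_mk C σ hσC g

theorem permQ_pow_mk (C : Subgroup Y) [C.Normal] (σ : MulAut Y) (hσC : ∀ c, σ c ∈ C ↔ c ∈ C) (i : ℕ)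
    (g : Y) : ((permQ C σ hσC) ^ i) (g : Y ⧸ C) = (((σ ^ i) g : Y) : Y ⧸ C) := by
  induction i with
  | zero => rfl
  | succ i ih =>
    rw [pow_succ', Equiv.Perm.mul_apply, ih, permQ_mk, pow_succ']
    rfl

/-- The commutant of `T` has small dimension. -/
theorem comm_count [IsAlgClosed k] [FiniteDimensional k W] [Nontrivial W]
    {ρ : Y →* End k W} {C : Subgroup Y} [hn : C.Normal] (h : IsHeis ρ C) (hs : IsSimpleRep ρ)
    (hY : (Fintype.card Y : k) ≠ 0) (T T' : End k W) (hTT' : T * T' = 1)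
    (σ : MulAut Y) (hTσ : ∀ u, T * ρ u = ρ (σ u) * T) (hσC : ∀ c, σ c ∈ C ↔ c ∈ C)
    {p : ℕ} (hp : p.Prime) (hσp : (permQ C σ hσC) ^ p = 1) [Fintype (Y ⧸ C)] [DecidableEq (Y ⧸ C)] :
    p * finrank k (comm T) ≤ (p - 1) * (Finset.univ.filter fun c => permQ C σ hσC c = c).card +
      finrank k W * finrank k W := by
  classical
  let e : Y ⧸ C → Y := Quotient.out
  have he : ∀ c, ((e c : Y) : Y ⧸ C) = c := fun c => QuotientGroup.out_eq' c
  let b := sectionBasis h hs hY e he
  have hb : ∀ c, b c = ρ (e c) := fun c => sectionBasis_apply h hs hY e he c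
  set π := permQ C σ hσC with hπdef
  have hπ : ∀ g : Y, π (g : Y ⧸ C) = ((σ g : Y) : Y ⧸ C) := permQ_mk C σ hσC
  obtain ⟨n, r, hr, hcount⟩ := exists_orbit_reps_fix π hp hσp
  -- the scalars
  have hscal : ∀ c : Y ⧸ C, ∃ t : k, T * b c * T' = t • b (π c) := by
    intro c
    have h1 : T * b c * T' = ρ (σ (e c)) := by
      rw [hb, hTσ, mul_assoc, hTT', mul_one]
    have h2 : (e (π c))⁻¹ * σ (e c) ∈ C := by
      apply (QuotientGroup.eq (s := C)).mp
      rw [he, ← hπ, he]
    obtain ⟨t, ht⟩ := h.scal _ h2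
    refine ⟨t, ?_⟩
    have h3 : σ (e c) = e (π c) * ((e (π c))⁻¹ * σ (e c)) := by group
    rw [h1, h3, map_mul, ht, hb, mul_smul_comm, mul_one]
  choose t ht using hscal
  -- the key relation
  have hrel : ∀ E ∈ comm T, ∀ c, b.repr E (π c) = b.repr E c * t c := by
    intro E hE c₁
    have hE1 : T * E * T' = E := by
      rw [← mem_comm.mp hE, mul_assoc, hTT', mul_one]
    have hE2 : E = ∑ c, (b.repr E c * t c) • b (π c) := by
      conv_lhs => rw [← hE1]
      conv_lhs => rw [← b.sum_repr E]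
      rw [Finset.mul_sum, Finset.sum_mul]
      refine Finset.sum_congr rfl fun c _ => ?_
      rw [mul_smul_comm, smul_mul_assoc, ht, smul_smul]
    conv_lhs => rw [hE2]
    rw [map_sum, Finsupp.finsetSum_apply, Finset.sum_eq_single c₁]
    · rw [map_smul, Basis.repr_self, Finsupp.smul_apply, Finsupp.single_eq_same, smul_eq_mul, mul_one]
    · intro c _ hc
      rw [map_smul, Basis.repr_self, Finsupp.smul_apply, Finsupp.single_eq_of_ne, smul_zero]
      intro h'
      exact hc (π.injective h').symm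
    · intro h'
      exact absurd (Finset.mem_univ _) h'
  -- injective map to functions
  let Φ : comm T →ₗ[k] (Fin n → k) :=
    LinearMap.pi fun q => (Finsupp.lapply (r q)) ∘ₗ b.repr.toLinearMap ∘ₗ (comm T).subtype
  have hΦ : Function.Injective Φ := by
    rw [injective_iff_map_eq_zero]
    rintro ⟨E, hE⟩ h0
    have h1 : ∀ q, b.repr E (r q) = 0 := by
      intro q
      have := congrFun h0 q
      simpa [Φ] using this
    have h2 : ∀ (i : ℕ) q, b.repr E ((π ^ i) (r q)) = 0 := by
      intro i q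
      induction i with
      | zero => exact h1 q
      | succ i ih =>
        rw [pow_succ', Equiv.Perm.mul_apply, hrel E hE, ih, zero_mul]
    have h3 : b.repr E = 0 := by
      ext c
      obtain ⟨q, i, rfl⟩ := hr c
      exact h2 i q
    have h4 : E = 0 := by
      have := b.repr.injective (h3.trans (map_zero b.repr).symm)
      exact this
    exact Subtype.ext h4
  have hle : finrank k (comm T) ≤ n := by
    have := LinearMap.finrank_le_finrank_of_injective hΦ
    rwa [Module.finrank_fin_fun] at this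
  have hD : finrank k W * finrank k W = Fintype.card (Y ⧸ C) := finrank_mul_self h hs hY e he
  rw [hD]
  calc p * finrank k (comm T) ≤ p * n := Nat.mul_le_mul_left _ hle
    _ ≤ _ := hcount

/-- The arithmetic of the simple case. -/
theorem arith_heis {p c f r D : ℕ} (hp : 4 < p) (hD : 0 < D) (h1 : p * c ≤ (p - 1) * f + D * D)
    (h2 : r * r + D ≤ c + r) (h3 : 2 * f ≤ D) : 2 * r < D := by
  by_contra hcon
  push Not at hcon
  obtain ⟨t, rfl⟩ : ∃ t, p = t + 5 := ⟨p - 5, by omega⟩
  have e : t + 5 - 1 = t + 4 := by omega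
  rw [e] at h1
  zify at h1 h2 h3 hcon hD
  have h4 : (0 : ℤ) ≤ (2 * r - D) * (2 * r + D - 2) := by
    apply mul_nonneg <;> linarith
  have h5 : (D : ℤ) * D + 2 * D ≤ 4 * c := by nlinarith
  have h6 : ((t : ℤ) + 5) * (D * D + 2 * D) ≤ (t + 5) * (4 * c) :=
    mul_le_mul_of_nonneg_left h5 (by positivity)
  have h7 : 4 * (((t : ℤ) + 4) * f) ≤ 2 * ((t + 4) * D) := by
    have := mul_le_mul_of_nonneg_left h3 (show (0 : ℤ) ≤ 2 * ((t : ℤ) + 4) by positivity)
    linarith
  have h8 : ((t : ℤ) + 1) * (D * D) + 2 * D ≤ 0 := by nlinarith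
  have h9 : (0 : ℤ) ≤ ((t : ℤ) + 1) * (D * D) := by positivity
  linarith

/-- **The simple case.** -/
theorem simple_bound [IsAlgClosed k] [FiniteDimensional k W] [Nontrivial W]
    {ρ : Y →* End k W} {C : Subgroup Y} [hn : C.Normal] (h : IsHeis ρ C) (hs : IsSimpleRep ρ)
    (hY : (Fintype.card Y : k) ≠ 0) (T : End k W) (σ : MulAut Y) (hTσ : ∀ u, T * ρ u = ρ (σ u) * T)
    (hσC : ∀ c, σ c ∈ C ↔ c ∈ C) {p : ℕ} (hp : p.Prime) (hp4 : 4 < p) (hT : T ^ p = 1)
    (hσp : (permQ C σ hσC) ^ p = 1) [Fintype (Y ⧸ C)] [DecidableEq (Y ⧸ C)]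
    {q c n : ℕ} (hq : q.Prime) (hf : (Finset.univ.filter fun c => permQ C σ hσC c = c).card = q ^ c)
    (hcard : Fintype.card (Y ⧸ C) = q ^ n) (hcn : 2 * c < n) :
    2 * finrank k (LinearMap.ker (T - 1)) < finrank k W := by
  classical
  have hA : 0 < p := hp.pos
  have hTT' : T * T ^ (p - 1) = 1 := by
    rw [← pow_succ', Nat.sub_add_cancel hA, hT]
  have h1 := comm_count h hs hY T _ hTT' σ hTσ hσC hp hσp
  have h2 := sq_add_le_comm T
  have hD0 : 0 < finrank k W := Module.finrank_pos
  let e : Y ⧸ C → Y := Quotient.out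
  have he : ∀ c, ((e c : Y) : Y ⧸ C) = c := fun c => QuotientGroup.out_eq' c
  have hD : finrank k W * finrank k W = Fintype.card (Y ⧸ C) := finrank_mul_self h hs hY e he
  rw [hcard] at hD
  -- `D` is a power of `q`
  have hdvd : finrank k W ∣ q ^ n := ⟨finrank k W, hD.symm⟩
  obtain ⟨a, -, ha⟩ := (Nat.dvd_prime_pow hq).mp hdvd
  have h2a : 2 * a = n := by
    rw [ha, ← pow_add] at hD
    have := Nat.pow_right_injective hq.two_le hD
    omega
  have hca : c + 1 ≤ a := by omega
  have hfle : 2 * (q ^ c) ≤ finrank k W := by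
    rw [ha]
    calc 2 * q ^ c ≤ q * q ^ c := Nat.mul_le_mul_right _ hq.two_le
      _ = q ^ (c + 1) := by rw [pow_succ']
      _ ≤ q ^ a := Nat.pow_le_pow_right hq.pos hca
  rw [hf] at h1
  exact arith_heis hp4 hD0 h1 h2 hfle

/-- **The bound.** -/
theorem heis_bound [IsAlgClosed k] {C : Subgroup Y} [hn : C.Normal] (hY : (Fintype.card Y : k) ≠ 0)
    (σ : MulAut Y) (hσC : ∀ c, σ c ∈ C ↔ c ∈ C) {p : ℕ} (hp : p.Prime) (hp4 : 4 < p)
    (hσp : (permQ C σ hσC) ^ p = 1) [Fintype (Y ⧸ C)] [DecidableEq (Y ⧸ C)]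
    {q c n : ℕ} (hq : q.Prime) (hf : (Finset.univ.filter fun c => permQ C σ hσC c = c).card = q ^ c)
    (hcard : Fintype.card (Y ⧸ C) = q ^ n) (hcn : 2 * c < n) :
    ∀ (m : ℕ) {W : Type _} [AddCommGroup W] [Module k W] [FiniteDimensional k W] [Nontrivial W]
      (ρ : Y →* End k W) (_ : IsHeis ρ C) (T : End k W) (_ : T ^ p = 1)
      (_ : ∀ u, T * ρ u = ρ (σ u) * T) (_ : ∀ c ∈ C, ρ (σ c) = ρ c), finrank k W = m →
      2 * finrank k (LinearMap.ker (T - 1)) < finrank k W := by
  intro m
  induction m using Nat.strong_induction_on with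
  | _ m ih =>
    intro W _ _ _ _ ρ h T hT hTσ hσρ hm
    obtain ⟨U, hU0, hUT, hU, hH, hS⟩ := exists_invariant_simple' h hY T σ hTσ hσρ
    haveI : Nontrivial U := Submodule.nontrivial_iff_ne_bot.mpr hU0
    set TU : End k U := T.restrict hUT with hTU
    have hTUpow : ∀ i (v : U), (((TU ^ i) v : U) : W) = (T ^ i) v := by
      intro i v
      induction i with
      | zero => simp
      | succ i ih =>
        rw [pow_succ', pow_succ', Module.End.mul_apply, Module.End.mul_apply, hTU,
          LinearMap.coe_restrict_apply, ih]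
    have hTUp : TU ^ p = 1 := by
      ext v
      rw [hTUpow, hT]
      rfl
    have hUσ : ∀ u, TU * resRep ρ U hU u = resRep ρ U hU (σ u) * TU := by
      intro u
      ext v
      have := congrArg (fun f : End k W => f v) (hTσ u)
      exact this
    have h1 := simple_bound hH hS hY TU σ hUσ hσC hp hp4 hTUp hσp hq hf hcard hcn
    have h2 : finrank k (LinearMap.ker (T - 1)) ≤ finrank k (LinearMap.ker (TU - 1)) +
        finrank k (LinearMap.ker (U.mapQ U T hUT - 1)) := finrank_ker_le_sub_add_quot T U hUT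
    have h3 := Submodule.finrank_quotient_add_finrank U
    by_cases hQ : Nontrivial (W ⧸ U)
    · set TQ : End k (W ⧸ U) := U.mapQ U T hUT with hTQ
      have hTQpow : ∀ i (v : W), (TQ ^ i) (Submodule.Quotient.mk v) = Submodule.Quotient.mk ((T ^ i) v) := by
        intro i v
        induction i with
        | zero => simp
        | succ i ih =>
          rw [pow_succ', pow_succ', Module.End.mul_apply, Module.End.mul_apply, ih]
          rfl
      have hTQp : TQ ^ p = 1 := by
        ext v
        simp only [LinearMap.comp_apply, Submodule.mkQ_apply]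
        rw [hTQpow, hT]
        rfl
      have hQσ : ∀ u, TQ * quotRep ρ U hU u = quotRep ρ U hU (σ u) * TQ := by
        intro u
        ext v
        have := congrArg (fun f : End k W => (Submodule.Quotient.mk (f v) : W ⧸ U)) (hTσ u)
        exact this
      have hρQ : ∀ c ∈ C, quotRep ρ U hU (σ c) = quotRep ρ U hU c := by
        intro c hc
        ext v
        have := congrArg (fun f : End k W => (Submodule.Quotient.mk (f v) : W ⧸ U)) (hσρ c hc)
        exact this
      have hU1 : 0 < finrank k U := Module.finrank_pos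
      have h4 := ih (finrank k (W ⧸ U)) (by omega) (quotRep ρ U hU) (heis_quot h U hU) TQ hTQp hQσ hρQ rfl
      omega
    · rw [not_nontrivial_iff_subsingleton] at hQ
      have h5 : finrank k (W ⧸ U) = 0 := finrank_zero_of_subsingleton
      have h6 : finrank k (LinearMap.ker (U.mapQ U T hUT - 1)) = 0 := finrank_zero_of_subsingleton
      omega

end Cfsg.Agent.Lib.Flavell
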