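import Mathlib
import Cfsg.Agent.Lib.Flavell.Heis2
import Cfsg.Agent.Lib.Components.Fitting

/-!
# The case of a nonabelian normal `q`-subgroup, all of whose proper normal subgroups are central
-/

set_option autoImplicit false
set_option linter.unusedSectionVars false
set_option linter.style.haveILetI false

universe u

namespace Cfsg.Agent.Lib.Flavell

open Module Cfsg.Agent.Lib.OddOrder.HHCore Cfsg.Agent.Lib.HallHigman.Commutant
open Cfsg.Agent.Lib.HallHigman.Core Cfsg.Agent.Lib.Gross.Type
open scoped commutatorElement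

/-- The statement proved by induction, for groups of order less than `n`. -/
def Bd (p n : ℕ) : Prop :=
  ∀ (G : Type u) [Group G] [Finite G] [Group.IsSolvable G], Nat.card G < n →
    ∀ x : G, x ^ p = 1 → Subgroup.normalClosure ({x} : Set G) = ⊤ →
      ∀ (r : ℕ) [Fact r.Prime] (W : Type u) [AddCommGroup W] [Module (ZMod r) W]
        [FiniteDimensional (ZMod r) W] (ρ : G →* End (ZMod r) W),
        (∀ U : Submodule (ZMod r) W, (∀ g, ∀ v ∈ U, ρ g v ∈ U) → U ≠ ⊥ → U = ⊤) → ρ x ≠ 1 →
          2 * finrank (ZMod r) (LinearMap.ker (ρ x - 1)) < finrank (ZMod r) W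

theorem Bd.mono {p n m : ℕ} (h : Bd.{u} p n) (hm : m ≤ n) : Bd.{u} p m :=
  fun G _ _ _ hG => h G (lt_of_lt_of_le hG hm)

/-- The bound, in the language of a group acting on an elementary abelian group. -/
theorem group_bound_aux' {p n : ℕ} (hB : Bd.{u} p n) {Γ A : Type u} [Group Γ] [Finite Γ] [Group.IsSolvable Γ]
    [CommGroup A] [Finite A] {q : ℕ} [hq : Fact q.Prime] [Module (ZMod q) (Additive A)]
    (φ : Γ →* MulAut A) {t : Γ} (ht : t ^ p = 1)
    (hgen : Subgroup.normalClosure ({t} : Set Γ) = ⊤) (hΓ : Nat.card Γ < n)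
    (hirr : ∀ B : Subgroup A, (∀ g, ∀ b ∈ B, φ g b ∈ B) → B ≠ ⊥ → B = ⊤) (hne : φ t ≠ 1) :
    ∃ c m : ℕ, Nat.card {a : A // φ t a = a} = q ^ c ∧ Nat.card A = q ^ m ∧ 2 * c < m := by
  classical
  haveI : Finite (Additive A) := inferInstanceAs (Finite A)
  haveI : Module.Finite (ZMod q) (Additive A) := Module.Finite.of_finite
  let lin : Γ → End (ZMod q) (Additive A) := fun g =>
    AddMonoidHom.toZModLinearMap q (MonoidHom.toAdditive (φ g : A →* A))
  have hlin : ∀ (g : Γ) (a : A), lin g (Additive.ofMul a) = Additive.ofMul (φ g a) := fun _ _ => rfl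
  let ρ : Γ →* End (ZMod q) (Additive A) :=
    { toFun := lin
      map_one' := by
        refine LinearMap.ext fun a => ?_
        induction a using Additive.rec with
        | _ a =>
          rw [hlin, map_one]
          rfl
      map_mul' := by
        intro g h
        refine LinearMap.ext fun a => ?_
        induction a using Additive.rec with
        | _ a =>
          rw [Module.End.mul_apply, hlin, hlin, hlin, map_mul]
          rfl }
  have hρ : ∀ (g : Γ) (a : A), ρ g (Additive.ofMul a) = Additive.ofMul (φ g a) := fun _ _ => rfl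
  have hs : ∀ U : Submodule (ZMod q) (Additive A), (∀ g, ∀ v ∈ U, ρ g v ∈ U) → U ≠ ⊥ → U = ⊤ := by
    intro U hU hne'
    let B : Subgroup A :=
      { carrier := {a | Additive.ofMul a ∈ U}
        one_mem' := U.zero_mem
        mul_mem' := fun {a b} ha hb => U.add_mem ha hb
        inv_mem' := fun {a} ha => U.neg_mem ha }
    have hBtop : B = ⊤ := by
      apply hirr
      · intro g b hb
        exact hU g _ hb
      · intro hbot
        apply hne'
        rw [eq_bot_iff]
        intro v hv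
        have h1 : v.toMul ∈ B := hv
        rw [hbot, Subgroup.mem_bot] at h1
        rw [Submodule.mem_bot]
        exact congrArg Additive.ofMul h1
    rw [eq_top_iff]
    intro v _
    have h1 : v.toMul ∈ B := by rw [hBtop]; trivial
    exact h1
  have hne' : ρ t ≠ 1 := by
    intro h1
    apply hne
    ext a
    have h2 := congrArg (fun f : End (ZMod q) (Additive A) => f (Additive.ofMul a)) h1
    exact h2
  have hmain := hB Γ hΓ t ht hgen q (Additive A) ρ hs hne'
  refine ⟨finrank (ZMod q) (LinearMap.ker (ρ t - 1)), finrank (ZMod q) (Additive A), ?_, ?_, hmain⟩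
  · have h1 : Nat.card {a : A // φ t a = a} = Nat.card (LinearMap.ker (ρ t - 1)) := by
      refine Nat.card_congr
        { toFun := fun a => ⟨Additive.ofMul a.1, ?_⟩
          invFun := fun v => ⟨v.1.toMul, ?_⟩
          left_inv := fun _ => rfl
          right_inv := fun _ => rfl }
      · rw [LinearMap.mem_ker, LinearMap.sub_apply, sub_eq_zero]
        show Additive.ofMul (φ t a.1) = Additive.ofMul a.1
        rw [a.2]
      · have h2 := v.2
        rw [LinearMap.mem_ker, LinearMap.sub_apply, sub_eq_zero] at h2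
        exact congrArg Additive.toMul h2
    rw [h1, Module.natCard_eq_pow_finrank (K := ZMod q), Nat.card_zmod]
  · have h1 : Nat.card A = Nat.card (Additive A) := rfl
    rw [h1, Module.natCard_eq_pow_finrank (K := ZMod q), Nat.card_zmod]

theorem group_bound_aux {p n : ℕ} (hB : Bd.{u} p n) {Γ A : Type u} [Group Γ] [Finite Γ] [Group.IsSolvable Γ]
    [CommGroup A] [Finite A] {q : ℕ} [hq : Fact q.Prime]
    (hexp : ∀ a : A, a ^ q = 1) (φ : Γ →* MulAut A) {t : Γ} (ht : t ^ p = 1)
    (hgen : Subgroup.normalClosure ({t} : Set Γ) = ⊤) (hΓ : Nat.card Γ < n)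
    (hirr : ∀ B : Subgroup A, (∀ g, ∀ b ∈ B, φ g b ∈ B) → B ≠ ⊥ → B = ⊤) (hne : φ t ≠ 1) :
    ∃ c m : ℕ, Nat.card {a : A // φ t a = a} = q ^ c ∧ Nat.card A = q ^ m ∧ 2 * c < m := by
  letI : Module (ZMod q) (Additive A) := AddCommGroup.zmodModule (n := q) (fun x => by
    show Additive.ofMul (x.toMul ^ q) = 0
    rw [hexp]
    rfl)
  exact group_bound_aux' hB φ ht hgen hΓ hirr hne

theorem group_bound {p n : ℕ} (hB : Bd.{u} p n) {Γ A : Type u} [Group Γ] [Finite Γ] [Group.IsSolvable Γ]
    [Group A] [Finite A] (hcomm : ∀ a b : A, a * b = b * a) {q : ℕ} [hq : Fact q.Prime]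
    (hexp : ∀ a : A, a ^ q = 1) (φ : Γ →* MulAut A) {t : Γ} (ht : t ^ p = 1)
    (hgen : Subgroup.normalClosure ({t} : Set Γ) = ⊤) (hΓ : Nat.card Γ < n)
    (hirr : ∀ B : Subgroup A, (∀ g, ∀ b ∈ B, φ g b ∈ B) → B ≠ ⊥ → B = ⊤) (hne : φ t ≠ 1) :
    ∃ c m : ℕ, Nat.card {a : A // φ t a = a} = q ^ c ∧ Nat.card A = q ^ m ∧ 2 * c < m := by
  letI iA : CommGroup A := { ‹Group A› with mul_comm := hcomm }
  exact group_bound_aux hB hexp φ ht hgen hΓ hirr hne

section main

variable {G : Type u} [Group G] [Finite G] [Group.IsSolvable G] {k : Type*} [Field k] [IsAlgClosed k]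
  {V : Type*} [AddCommGroup V] [Module k V] [FiniteDimensional k V] [Nontrivial V]

/-- **The nonabelian case.** -/
theorem case_nonabelian (ρ : G →* End k V) (hρ : Function.Injective ρ)
    (hs : ∀ U : Submodule k V, (∀ g, ∀ v ∈ U, ρ g v ∈ U) → U ≠ ⊥ → U = ⊤)
    {p : ℕ} [hpp : Fact p.Prime] (hp4 : 4 < p) {x : G} (hx : x ^ p = 1)
    (hgen : Subgroup.normalClosure ({x} : Set G) = ⊤) (hB : Bd.{u} p (Nat.card G))
    {q : ℕ} [hq : Fact q.Prime] (hqk : (q : k) ≠ 0) (K : Subgroup G) [hKn : K.Normal]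
    (hKq : IsPGroup q K) (hKna : ¬ ∀ a ∈ K, ∀ b ∈ K, a * b = b * a)
    (hmin : ∀ N : Subgroup G, N.Normal → N < K → N ≤ Subgroup.center G) :
    2 * finrank k (LinearMap.ker (ρ x - 1)) < finrank k V := by
  classical
  letI : Fintype G := Fintype.ofFinite _
  letI : Fintype K := Fintype.ofFinite _
  have hKbot : K ≠ ⊥ := by
    rintro rfl
    apply hKna
    intro a ha b hb
    rw [Subgroup.mem_bot] at ha hb
    rw [ha, hb]
  -- the commutators are central
  have hKsol : Group.IsSolvable K := inferInstance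
  have hKK : ⁅K, K⁆ < K := Cfsg.Agent.Lib.Components.Fitting.commutator_lt_of_solvable hKbot hKsol
  have hKKc : ⁅K, K⁆ ≤ Subgroup.center G := hmin _ inferInstance hKK
  have hcommC : ∀ u ∈ K, ∀ v ∈ K, u * v * u⁻¹ * v⁻¹ ∈ Subgroup.center G := by
    intro u hu v hv
    have := Subgroup.commutator_mem_commutator hu hv
    rw [commutatorElement_def] at this
    exact hKKc this
  -- `Z(K)` is central
  let ZK : Subgroup G := K ⊓ Subgroup.centralizer (K : Set G)
  have hZKn : ZK.Normal := Subgroup.normal_inf_normal _ _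
  have hZKlt : ZK < K := by
    refine lt_of_le_of_ne inf_le_left ?_
    intro h
    apply hKna
    intro a ha b hb
    have h1 : a ∈ ZK := by rw [h]; exact ha
    exact (Subgroup.mem_centralizer_iff.mp (Subgroup.mem_inf.mp h1).2 b hb).symm
  have hZKc : ZK ≤ Subgroup.center G := hmin _ hZKn hZKlt
  -- the structure
  let C : Subgroup K := (Subgroup.center G).subgroupOf K
  have hCmem : ∀ y : K, y ∈ C ↔ (y : G) ∈ Subgroup.center G := fun y => Subgroup.mem_subgroupOf
  haveI hCn : C.Normal := Subgroup.Normal.subgroupOf inferInstance K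
  let ρY : K →* End k V := ρ.comp K.subtype
  have hsG : IsSimpleRep ρ := fun U hU hne => hs U hU hne
  have hHeis : IsHeis ρY C := by
    refine ⟨?_, ?_, ?_⟩
    · intro c hc
      have hc' := (hCmem c).mp hc
      refine schur hsG (ρY c) ?_
      intro y
      show ρ c * ρ y = ρ y * ρ c
      rw [← map_mul, ← map_mul, (Subgroup.mem_center_iff.mp hc' y).symm]
    · intro u y
      exact (hCmem _).mpr (hcommC _ u.2 _ y.2)
    · intro y hy
      by_contra hcon
      push Not at hcon
      apply hy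
      have h1 : (y : G) ∈ ZK := by
        refine Subgroup.mem_inf.mpr ⟨y.2, ?_⟩
        rw [Subgroup.mem_centralizer_iff]
        intro u hu
        have h2 := hcon ⟨u, hu⟩
        have h3 : u * y * u⁻¹ * (y : G)⁻¹ = 1 := by
          apply hρ
          rw [map_one]
          exact h2
        have h4 := mul_inv_eq_one.mp h3
        have h5 := mul_inv_eq_iff_eq_mul.mp h4
        exact h5
      exact (hCmem y).mpr (hZKc h1)
  let σ : MulAut K := MulAut.conjNormal x
  have hσval : ∀ y : K, ((σ y : K) : G) = x * y * x⁻¹ := fun y => MulAut.conjNormal_apply x y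
  have hconjC : ∀ (g : G) (c : K), (MulAut.conjNormal g c : K) ∈ C ↔ c ∈ C := by
    intro g c
    rw [hCmem, hCmem, MulAut.conjNormal_apply]
    constructor
    · intro h
      have := (inferInstance : (Subgroup.center G).Normal).conj_mem _ h g⁻¹
      have e : g⁻¹ * (g * c * g⁻¹) * g⁻¹⁻¹ = c := by group
      rwa [e] at this
    · intro h
      exact (inferInstance : (Subgroup.center G).Normal).conj_mem _ h g
  have hσC : ∀ c, σ c ∈ C ↔ c ∈ C := hconjC x
  -- the quotient is commutative
  have hcommA : ∀ a b : K ⧸ C, a * b = b * a := by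
    intro a b
    obtain ⟨y, rfl⟩ := QuotientGroup.mk_surjective a
    obtain ⟨z, rfl⟩ := QuotientGroup.mk_surjective b
    show ((y * z : K) : K ⧸ C) = ((z * y : K) : K ⧸ C)
    rw [QuotientGroup.eq]
    have e : (y * z)⁻¹ * (z * y) = z⁻¹ * y⁻¹ * z⁻¹⁻¹ * y⁻¹⁻¹ := by group
    rw [e]
    exact (hCmem _).mpr (hcommC _ (K.inv_mem z.2) _ (K.inv_mem y.2))
  -- the action
  let φ₀ : G →* MulAut (K ⧸ C) :=
    { toFun := fun g => permOf C (MulAut.conjNormal g) (hconjC g)
      map_one' := by
        ext c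
        obtain ⟨y, rfl⟩ := QuotientGroup.mk_surjective c
        rw [permOf_mk, map_one]
        rfl
      map_mul' := by
        intro g h
        ext c
        obtain ⟨y, rfl⟩ := QuotientGroup.mk_surjective c
        rw [MulAut.mul_apply, permOf_mk, permOf_mk, permOf_mk, map_mul]
        rfl }
  have hφ₀ : ∀ (g : G) (y : K), φ₀ g (y : K ⧸ C) = ((MulAut.conjNormal g y : K) : K ⧸ C) :=
    fun g y => permOf_mk C _ (hconjC g) y
  have hker : ∀ g ∈ K, φ₀ g = 1 := by
    intro g hg
    ext c
    obtain ⟨y, rfl⟩ := QuotientGroup.mk_surjective c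
    rw [hφ₀, MulAut.one_apply, QuotientGroup.eq, hCmem]
    have e : (((MulAut.conjNormal g y : K)⁻¹ * y : K) : G) = g * (y : G)⁻¹ * g⁻¹ * (y : G)⁻¹⁻¹ := by
      simp only [Subgroup.coe_mul, Subgroup.coe_inv, MulAut.conjNormal_apply]
      group
    rw [e]
    exact hcommC _ hg _ (K.inv_mem y.2)
  let φ : G ⧸ K →* MulAut (K ⧸ C) := QuotientGroup.lift K φ₀ (fun g hg => hker g hg)
  have hφ : ∀ g : G, φ (g : G ⧸ K) = φ₀ g := fun g => QuotientGroup.lift_mk _ _ _
  let t : G ⧸ K := (x : G ⧸ K)
  have ht : t ^ p = 1 := by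
    show ((x : G ⧸ K)) ^ p = 1
    rw [← QuotientGroup.mk_pow, hx]
    rfl
  have hgen' : Subgroup.normalClosure ({t} : Set (G ⧸ K)) = ⊤ := by
    have h1 := Subgroup.map_normalClosure ({x} : Set G) (QuotientGroup.mk' K)
      (QuotientGroup.mk'_surjective K)
    rw [hgen, Set.image_singleton, Subgroup.map_top_of_surjective _ (QuotientGroup.mk'_surjective K)] at h1
    exact h1.symm
  have hΓ : Nat.card (G ⧸ K) < Nat.card G := by
    rw [Subgroup.card_eq_card_quotient_mul_card_subgroup K]
    have h1 : 1 < Nat.card K := Subgroup.one_lt_card_iff_ne_bot K |>.mpr hKbot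
    have h2 : 0 < Nat.card (G ⧸ K) := Nat.card_pos
    nlinarith
  -- irreducibility
  have hirr : ∀ B : Subgroup (K ⧸ C), (∀ g, ∀ b ∈ B, φ g b ∈ B) → B ≠ ⊥ → B = ⊤ := by
    intro B hBinv hBne
    by_contra hBtop
    let L : Subgroup K := B.comap (QuotientGroup.mk' C)
    let N : Subgroup G := L.map K.subtype
    have hNK : N ≤ K := Subgroup.map_subtype_le L
    have hNn : N.Normal := by
      refine ⟨?_⟩
      rintro _ ⟨y, hy, rfl⟩ g
      refine ⟨MulAut.conjNormal g y, ?_, MulAut.conjNormal_apply g y⟩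
      show ((MulAut.conjNormal g y : K) : K ⧸ C) ∈ B
      rw [← hφ₀, ← hφ]
      exact hBinv _ _ hy
    have hNne : N ≠ K := by
      intro h
      apply hBtop
      rw [eq_top_iff]
      intro a _
      obtain ⟨y, rfl⟩ := QuotientGroup.mk_surjective a
      have h1 : (y : G) ∈ N := by rw [h]; exact y.2
      obtain ⟨y', hy', he⟩ := h1
      have h2 : y' = y := Subtype.ext he
      subst h2
      exact hy'
    have hNc := hmin N hNn (lt_of_le_of_ne hNK hNne)
    apply hBne
    rw [eq_bot_iff]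
    intro a ha
    obtain ⟨y, rfl⟩ := QuotientGroup.mk_surjective a
    have h1 : (y : G) ∈ N := ⟨y, ha, rfl⟩
    have h2 : y ∈ C := (hCmem y).mpr (hNc h1)
    rw [Subgroup.mem_bot]
    exact (QuotientGroup.eq_one_iff y).mpr h2
  -- the exponent
  have hCne : C ≠ ⊤ := by
    intro h
    apply hKna
    intro a ha b hb
    have h1 : (⟨a, ha⟩ : K) ∈ C := by rw [h]; trivial
    exact Subgroup.mem_center_iff.mp ((hCmem _).mp h1) b |>.symm
  haveI : Nontrivial (K ⧸ C) := QuotientGroup.nontrivial_iff.mpr hCne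
  have hexp : ∀ a : K ⧸ C, a ^ q = 1 := by
    let B₁ : Subgroup (K ⧸ C) :=
      { carrier := {a | a ^ q = 1}
        one_mem' := one_pow q
        mul_mem' := fun {a b} ha hb => by
          show (a * b) ^ q = 1
          rw [(show Commute a b from hcommA a b).mul_pow, ha, hb, one_mul]
        inv_mem' := fun {a} ha => by
          show a⁻¹ ^ q = 1
          rw [inv_pow, ha, inv_one] }
    have hB₁ : B₁ = ⊤ := by
      apply hirr
      · intro g b hb
        show (φ g b) ^ q = 1
        rw [← map_pow, hb, map_one]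
      · intro hbot
        have hAq : IsPGroup q (K ⧸ C) := hKq.to_quotient C
        obtain ⟨n, hn⟩ := IsPGroup.iff_card.mp hAq
        have hn0 : n ≠ 0 := by
          rintro rfl
          rw [pow_zero] at hn
          have := Finite.one_lt_card (α := K ⧸ C)
          omega
        have hdvd : q ∣ Nat.card (K ⧸ C) := by
          rw [hn]
          exact dvd_pow_self q hn0
        obtain ⟨a, ha⟩ := exists_prime_orderOf_dvd_card' q hdvd
        have h1 : a ∈ B₁ := by
          show a ^ q = 1
          rw [← ha, pow_orderOf_eq_one]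
        rw [hbot, Subgroup.mem_bot] at h1
        rw [h1, orderOf_one] at ha
        exact hq.out.one_lt.ne ha
    intro a
    have h1 : a ∈ B₁ := by rw [hB₁]; trivial
    exact h1
  -- `x` is nontrivial on the quotient
  have hne : φ t ≠ 1 := by
    intro h1
    have hx₀ : x ∈ φ₀.ker := by
      rw [MonoidHom.mem_ker, ← hφ]
      exact h1
    have hall : ∀ g, φ₀ g = 1 := by
      have h2 : Subgroup.normalClosure ({x} : Set G) ≤ φ₀.ker :=
        Subgroup.normalClosure_le_normal (Set.singleton_subset_iff.mpr hx₀)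
      intro g
      have h3 : g ∈ φ₀.ker := h2 (by rw [hgen]; trivial)
      exact h3
    push Not at hKna
    obtain ⟨a, ha, b, hb, hab⟩ := hKna
    set ā : K ⧸ C := ((⟨a, ha⟩ : K) : K ⧸ C) with hā
    have hz := hirr (Subgroup.zpowers ā) (by
      intro g c hc
      obtain ⟨g₀, rfl⟩ := QuotientGroup.mk_surjective g
      rw [hφ, hall, MulAut.one_apply]
      exact hc) (by
      intro hbot
      have h2 : ā ∈ Subgroup.zpowers ā := Subgroup.mem_zpowers ā
      rw [hbot, Subgroup.mem_bot] at h2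
      have h3 : (⟨a, ha⟩ : K) ∈ C := (QuotientGroup.eq_one_iff _).mp h2
      exact hab (Subgroup.mem_center_iff.mp ((hCmem _).mp h3) b).symm)
    have h2 : ((⟨b, hb⟩ : K) : K ⧸ C) ∈ Subgroup.zpowers ā := by rw [hz]; trivial
    obtain ⟨i, hi⟩ := h2
    have h3 : ((((⟨a, ha⟩ : K) ^ i : K)) : K ⧸ C) = ((⟨b, hb⟩ : K) : K ⧸ C) := by
      rw [← hi]
      rfl
    have h4 := (hCmem _).mp (QuotientGroup.eq.mp h3)
    have h5 : ((((⟨a, ha⟩ : K) ^ i)⁻¹ * (⟨b, hb⟩ : K) : K) : G) = (a ^ i)⁻¹ * b := by
      simp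
    rw [h5] at h4
    have h6 : b = a ^ i * ((a ^ i)⁻¹ * b) := by group
    apply hab
    rw [h6]
    have h7 := Subgroup.mem_center_iff.mp h4 a
    calc a * (a ^ i * ((a ^ i)⁻¹ * b)) = a ^ i * a * ((a ^ i)⁻¹ * b) := by
          rw [← mul_assoc, (Commute.self_zpow a i).eq]
      _ = a ^ i * (a * ((a ^ i)⁻¹ * b)) := by rw [mul_assoc]
      _ = a ^ i * (((a ^ i)⁻¹ * b) * a) := by rw [h7]
      _ = _ := (mul_assoc _ _ _).symm
  -- conclusion
  letI : Fintype (K ⧸ C) := Fintype.ofFinite _
  obtain ⟨c, m, hc, hm, hcm⟩ := group_bound hB hcommA hexp φ ht hgen' hΓ hirr hne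
  have hφx : ∀ a, φ t a = permQ C σ hσC a := by
    intro a
    obtain ⟨y, rfl⟩ := QuotientGroup.mk_surjective a
    rw [show φ t = φ₀ x from hφ x, hφ₀, permQ_mk]
  have hf : (Finset.univ.filter fun c => permQ C σ hσC c = c).card = q ^ c := by
    rw [← hc, Nat.card_eq_fintype_card, Fintype.card_subtype]
    congr 1
  have hcard : Fintype.card (K ⧸ C) = q ^ m := by
    rw [← Nat.card_eq_fintype_card]
    exact hm
  have hσp : (permQ C σ hσC) ^ p = 1 := by
    ext a
    obtain ⟨y, rfl⟩ := QuotientGroup.mk_surjective a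
    rw [permQ_pow_mk]
    have h1 : σ ^ p = 1 := by
      show (MulAut.conjNormal x) ^ p = 1
      rw [← map_pow, hx, map_one]
    rw [h1]
    rfl
  have hY : (Fintype.card K : k) ≠ 0 := by
    rw [← Nat.card_eq_fintype_card]
    obtain ⟨a, ha⟩ := IsPGroup.iff_card.mp hKq
    rw [ha]
    push_cast
    exact pow_ne_zero _ hqk
  have hTσ : ∀ u, ρ x * ρY u = ρY (σ u) * ρ x := by
    intro u
    show ρ x * ρ u = ρ ((σ u : K) : G) * ρ x
    rw [hσval, ← map_mul, ← map_mul]
    congr 1
    group
  have hσρ : ∀ c ∈ C, ρY (σ c) = ρY c := by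
    intro c hc
    show ρ ((σ c : K) : G) = ρ c
    rw [hσval]
    have h1 := Subgroup.mem_center_iff.mp ((hCmem c).mp hc) x
    rw [h1]
    congr 1
    group
  exact heis_bound hY σ hσC hpp.out hp4 hσp hq.out hf hcard hcm _ ρY hHeis (ρ x)
    (by rw [← map_pow, hx, map_one]) hTσ hσρ rfl

end main

end Cfsg.Agent.Lib.Flavell
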