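import Mathlib

/-!
# Fixed points on a coset space

`G` solvable, generated by the conjugates of `x`, `x ^ p = 1` with `p` odd, `S < G`: then `x` fixes at
most a third of the cosets of `S`.
-/

set_option autoImplicit false
set_option linter.unusedSectionVars false

namespace Cfsg.Agent.Lib.Flavell

/-- Three cosets of the centraliser of `t` in an abelian normal subgroup. -/
theorem three_cosets {Γ : Type*} [Group Γ] (A : Subgroup Γ) [hA : A.Normal]
    (hcomm : ∀ u ∈ A, ∀ v ∈ A, u * v = v * u) {t : Γ} {p : ℕ} (hp : Odd p) (ht : t ^ p = 1) {a : Γ}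
    (ha : a ∈ A) (hat : t * a * t⁻¹ ≠ a) :
    ∃ z₁ ∈ A, ∃ z₂ ∈ A, t * z₁ * t⁻¹ ≠ z₁ ∧ t * z₂ * t⁻¹ ≠ z₂ ∧
      t * (z₁⁻¹ * z₂) * t⁻¹ ≠ z₁⁻¹ * z₂ := by
  by_cases h2 : t * (a * a) * t⁻¹ = a * a
  · -- `y = a⁻¹ t(a)`
    set y := a⁻¹ * (t * a * t⁻¹) with hy
    have hyA : y ∈ A := A.mul_mem (A.inv_mem ha) (hA.conj_mem a ha t)
    have hta : t * a * t⁻¹ = a * y := by rw [hy]; group
    have hy1 : y ≠ 1 := by
      intro h
      apply hat
      rw [hta, h, mul_one]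
    have hay : a * y = y * a := hcomm a ha y hyA
    have hyy : y * y = 1 := by
      have e : t * (a * a) * t⁻¹ = (t * a * t⁻¹) * (t * a * t⁻¹) := by group
      rw [e, hta] at h2
      have e2 : a * y * (a * y) = a * a * (y * y) := by
        rw [mul_assoc a y, ← mul_assoc y a y, ← hay]
        group
      rw [e2] at h2
      simpa using h2
    have hy2 : t * y * t⁻¹ ≠ y := by
      intro hfix
      have hpow : ∀ i : ℕ, t ^ i * a * (t ^ i)⁻¹ = a * y ^ i := by
        intro i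
        induction i with
        | zero => simp
        | succ i ih =>
          have e : t ^ (i + 1) * a * (t ^ (i + 1))⁻¹ = t * (t ^ i * a * (t ^ i)⁻¹) * t⁻¹ := by
            rw [pow_succ']
            group
          rw [e, ih]
          have e2 : t * (a * y ^ i) * t⁻¹ = (t * a * t⁻¹) * (t * y * t⁻¹) ^ i := by
            rw [conj_pow]
            group
          rw [e2, hfix, hta, pow_succ']
          group
      have h3 := hpow p
      rw [ht] at h3
      have h4 : y ^ p = 1 := by simpa using h3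
      obtain ⟨m, hm⟩ := hp
      rw [hm, pow_succ, pow_mul, pow_two, hyy, one_pow, one_mul] at h4
      exact hy1 h4
    have hy3 : t * (a⁻¹ * y) * t⁻¹ ≠ a⁻¹ * y := by
      intro hfix
      have e : t * (a⁻¹ * y) * t⁻¹ = (t * a * t⁻¹)⁻¹ * (t * y * t⁻¹) := by group
      rw [e, hta] at hfix
      apply hy1
      have h5 : t * y * t⁻¹ = a * y * (a⁻¹ * y) := by
        rw [← hfix]
        group
      have h6 : a * y * (a⁻¹ * y) = y * y := by
        rw [hay]
        group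
      rw [h6, hyy] at h5
      have h7 : y = t⁻¹ * (t * y * t⁻¹) * t := by group
      rw [h7, h5]
      group
    exact ⟨a, ha, y, hyA, hat, hy2, hy3⟩
  · refine ⟨a, ha, a * a, A.mul_mem ha ha, hat, h2, ?_⟩
    have e : a⁻¹ * (a * a) = a := by group
    rw [e]
    exact hat

variable {G : Type*} [Group G] [Finite G]

/-- A nontrivial solvable group has a nontrivial normal abelian subgroup; the version above a normal
subgroup `K₀`. -/
theorem exists_abelian_above [Group.IsSolvable G] (K₀ : Subgroup G) [hK₀ : K₀.Normal] (hne : K₀ ≠ ⊤) :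
    ∃ A : Subgroup (G ⧸ K₀), A.Normal ∧ A ≠ ⊥ ∧ ∀ u ∈ A, ∀ v ∈ A, u * v = v * u := by
  classical
  haveI : Nontrivial (G ⧸ K₀) := QuotientGroup.nontrivial_iff.mpr hne
  have hex : ∃ n, derivedSeries (G ⧸ K₀) n = ⊥ :=
    (Group.isSolvable_def (G ⧸ K₀)).1 inferInstance
  have hk := Nat.find_spec hex
  have hmin := fun j => Nat.find_min hex (m := j)
  generalize Nat.find hex = k at hk hmin
  cases k with
  | zero =>
    rw [derivedSeries_zero] at hk
    exact absurd hk top_ne_bot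
  | succ j =>
    refine ⟨derivedSeries (G ⧸ K₀) j, derivedSeries_normal _ j, hmin j (Nat.lt_succ_self j), ?_⟩
    intro a ha b hb
    have h1 := Subgroup.commutator_mem_commutator ha hb
    rw [← derivedSeries_succ, hk, Subgroup.mem_bot] at h1
    exact commutatorElement_eq_one_iff_mul_comm.1 h1

/-- **The fixed point bound.** -/
theorem fix_bound [Group.IsSolvable G] {p : ℕ} (hp : Odd p) {x : G} (hx : x ^ p = 1)
    (hgen : Subgroup.normalClosure ({x} : Set G) = ⊤) (S : Subgroup G) (hS : S ≠ ⊤)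
    [Fintype (G ⧸ S)] [DecidableEq (G ⧸ S)] :
    3 * (Finset.univ.filter fun c : G ⧸ S => x • c = c).card ≤ Fintype.card (G ⧸ S) := by
  classical
  set F := Finset.univ.filter fun c : G ⧸ S => x • c = c with hF
  by_cases hF0 : F = ∅
  · rw [hF0]
    simp
  obtain ⟨c₀, hc₀⟩ := Finset.nonempty_iff_ne_empty.mpr hF0
  -- a maximal subgroup
  obtain ⟨M, hM, hSM⟩ : ∃ M : Subgroup G, IsCoatom M ∧ S ≤ M := by
    rcases eq_top_or_exists_le_coatom S with h | h
    · exact absurd h hS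
    · exact h
  set K₀ := M.normalCore with hK₀
  haveI hK₀n : K₀.Normal := M.normalCore_normal
  have hK₀M : K₀ ≤ M := M.normalCore_le
  have hK₀top : K₀ ≠ ⊤ := by
    intro h
    apply hM.1
    rw [eq_top_iff, ← h]
    exact hK₀M
  let mk : G →* G ⧸ K₀ := QuotientGroup.mk' K₀
  have hmk : ∀ g, mk g = 1 ↔ g ∈ K₀ := fun g => QuotientGroup.eq_one_iff g
  obtain ⟨Ab, hAbn, hAbne, hAbcomm⟩ := exists_abelian_above K₀ hK₀top
  set A := Ab.comap mk with hA
  haveI hAn : A.Normal := Subgroup.Normal.comap hAbn mk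
  have hK₀A : K₀ ≤ A := fun g hg => by
    show mk g ∈ Ab
    rw [(hmk g).mpr hg]
    exact one_mem _
  have hAM : ¬ A ≤ M := by
    intro hle
    have h1 : A ≤ K₀ := Subgroup.normal_le_normalCore.mpr hle
    apply hAbne
    rw [eq_bot_iff]
    intro u hu
    obtain ⟨g, rfl⟩ := QuotientGroup.mk'_surjective K₀ u
    exact (hmk g).mpr (h1 hu)
  have hsup : A ⊔ M = ⊤ := by
    apply hM.2
    exact lt_of_le_of_ne le_sup_right (fun h => hAM (by rw [h]; exact le_sup_left))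
  have hdecomp : ∀ g : G, ∃ a ∈ A, ∃ m ∈ M, g = a * m := by
    intro g
    have hg : g ∈ (↑(A ⊔ M) : Set G) := by rw [hsup]; trivial
    rw [Subgroup.normal_mul] at hg
    obtain ⟨a, ha, m, hm, h⟩ := Set.mem_mul.mp hg
    exact ⟨a, ha, m, hm, h.symm⟩
  -- `A ∩ M` is `K₀`
  have hAMK : ∀ g ∈ A, g ∈ M → g ∈ K₀ := by
    have hnorm : (A ⊓ M).Normal := by
      refine ⟨fun y hy g => ?_⟩
      obtain ⟨hyA, hyM⟩ := Subgroup.mem_inf.mp hy
      obtain ⟨a, ha, m, hm, rfl⟩ := hdecomp g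
      set y' := m * y * m⁻¹ with hy'
      have hy'A : y' ∈ A := hAn.conj_mem y hyA m
      have hy'M : y' ∈ M := M.mul_mem (M.mul_mem hm hyM) (M.inv_mem hm)
      have e : a * m * y * (a * m)⁻¹ = a * y' * a⁻¹ := by rw [hy']; group
      rw [e]
      refine Subgroup.mem_inf.mpr ⟨hAn.conj_mem y' hy'A a, ?_⟩
      have h1 : mk a * mk y' = mk y' * mk a := hAbcomm _ ha _ hy'A
      have h2 : a * y' * a⁻¹ * y'⁻¹ ∈ K₀ := by
        rw [← hmk, map_mul, map_mul, map_mul, map_inv, map_inv, h1]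
        group
      have e2 : a * y' * a⁻¹ = (a * y' * a⁻¹ * y'⁻¹) * y' := by group
      rw [e2]
      exact M.mul_mem (hK₀M h2) hy'M
    have h1 : A ⊓ M ≤ K₀ := Subgroup.normal_le_normalCore.mpr inf_le_right
    exact fun g hgA hgM => h1 (Subgroup.mem_inf.mpr ⟨hgA, hgM⟩)
  -- the fixed coset
  obtain ⟨g₀, rfl⟩ := QuotientGroup.mk_surjective c₀
  have hfixc : ∀ g : G, ((g : G ⧸ S) ∈ F) ↔ g⁻¹ * x * g ∈ S := by
    intro g
    simp only [hF, Finset.mem_filter, Finset.mem_univ, true_and]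
    have e : x • (g : G ⧸ S) = ((x * g : G) : G ⧸ S) := rfl
    rw [e, eq_comm, QuotientGroup.eq]
    have e2 : g⁻¹ * (x * g) = g⁻¹ * x * g := by group
    rw [e2]
  have hx₁ : g₀⁻¹ * x * g₀ ∈ M := hSM ((hfixc g₀).mp hc₀)
  set x₁ := g₀⁻¹ * x * g₀ with hx₁def
  have hx₁p : x₁ ^ p = 1 := by
    rw [hx₁def]
    have e : g₀⁻¹ * x * g₀ = g₀⁻¹ * x * g₀⁻¹⁻¹ := by group
    rw [e, conj_pow, hx, mul_one, mul_inv_cancel]
  set t := mk x₁ with ht
  have htp : t ^ p = 1 := by rw [ht, ← map_pow, hx₁p, map_one]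
  -- `t` does not centralise `Ab`
  have hnon : ∃ a ∈ Ab, t * a * t⁻¹ ≠ a := by
    by_contra hcon
    push Not at hcon
    have hx₁K : x₁ ∈ K₀ := by
      intro b
      -- `b * x₁ * b⁻¹ ∈ M`
      obtain ⟨a, ha, m, hm, hb⟩ := hdecomp b⁻¹
      have h1 : t * mk a * t⁻¹ = mk a := hcon _ ha
      have h2 : a⁻¹ * x₁ * a * x₁⁻¹ ∈ K₀ := by
        rw [← hmk]
        simp only [map_mul, map_inv]
        have h3 : t * mk a = mk a * t := by
          have := congrArg (· * t) h1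
          simpa using this
        rw [← ht, mul_assoc (mk a)⁻¹, h3]
        group
      have h3 : a⁻¹ * x₁ * a ∈ M := by
        have e : a⁻¹ * x₁ * a = (a⁻¹ * x₁ * a * x₁⁻¹) * x₁ := by group
        rw [e]
        exact M.mul_mem (hK₀M h2) hx₁
      have e : b * x₁ * b⁻¹ = m⁻¹ * (a⁻¹ * x₁ * a) * m := by
        have hb' : b = (a * m)⁻¹ := by rw [← hb, inv_inv]
        rw [hb', inv_inv]
        group
      rw [e]
      exact M.mul_mem (M.mul_mem (M.inv_mem hm) h3) hm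
    have hxK : x ∈ K₀ := by
      have e : x = g₀ * x₁ * g₀⁻¹ := by rw [hx₁def]; group
      rw [e]
      exact hK₀n.conj_mem _ hx₁K _
    apply hK₀top
    rw [eq_top_iff, ← hgen]
    exact Subgroup.normalClosure_le_normal (Set.singleton_subset_iff.mpr hxK)
  obtain ⟨a, ha, hat⟩ := hnon
  obtain ⟨z₁, hz₁, z₂, hz₂, h1, h2, h3⟩ := three_cosets Ab hAbcomm hp htp ha hat
  obtain ⟨b₁, rfl⟩ := QuotientGroup.mk'_surjective K₀ z₁
  obtain ⟨b₂, rfl⟩ := QuotientGroup.mk'_surjective K₀ z₂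
  -- the centraliser
  set C : Subgroup G := A ⊓ (Subgroup.centralizer ({t} : Set (G ⧸ K₀))).comap mk with hC
  have hmemC : ∀ g, g ∈ C ↔ g ∈ A ∧ t * mk g * t⁻¹ = mk g := by
    intro g
    simp only [hC, Subgroup.mem_inf, Subgroup.mem_comap, Subgroup.mem_centralizer_singleton_iff]
    refine and_congr_right fun _ => ?_
    rw [mul_inv_eq_iff_eq_mul, eq_comm]
  have hK₀C : K₀ ≤ C := by
    intro g hg
    refine (hmemC g).mpr ⟨hK₀A hg, ?_⟩
    rw [(hmk g).mpr hg]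
    group
  -- the main claim
  have key : ∀ g g' : G, (g : G ⧸ S) ∈ F → (g' : G ⧸ S) ∈ F → ∀ b b' : G, b ∈ A → b' ∈ A →
      b'⁻¹ * b ∉ C → (g₀ * b' * g₀⁻¹ * g')⁻¹ * (g₀ * b * g₀⁻¹ * g) ∉ M := by
    intro g g' hg hg' b b' hb hb' hbb hmem
    have hsplit : ∀ g : G, (g : G ⧸ S) ∈ F → ∃ a ∈ C, ∃ m ∈ M, g₀⁻¹ * g = a * m := by
      intro g hg
      obtain ⟨a, ha, m, hm, h⟩ := hdecomp (g₀⁻¹ * g)
      refine ⟨a, (hmemC a).mpr ⟨ha, ?_⟩, m, hm, h⟩
      have h1 : g⁻¹ * x * g ∈ M := hSM ((hfixc g).mp hg)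
      have h2 : a⁻¹ * x₁ * a ∈ M := by
        have hg' : g = g₀ * (a * m) := by rw [← h]; group
        have e : a⁻¹ * x₁ * a = m * (g⁻¹ * x * g) * m⁻¹ := by
          rw [hg', hx₁def]
          group
        rw [e]
        exact M.mul_mem (M.mul_mem hm h1) (M.inv_mem hm)
      have h3 : a⁻¹ * x₁ * a * x₁⁻¹ ∈ M := M.mul_mem h2 (M.inv_mem hx₁)
      have h4 : a⁻¹ * x₁ * a * x₁⁻¹ ∈ A := by
        have e : a⁻¹ * x₁ * a * x₁⁻¹ = a⁻¹ * (x₁ * a * x₁⁻¹) := by group
        rw [e]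
        exact A.mul_mem (A.inv_mem ha) (hAn.conj_mem a ha x₁)
      have h5 := (hmk _).mpr (hAMK _ h4 h3)
      simp only [map_mul, map_inv] at h5
      rw [← ht] at h5
      have h6 : t * mk a * t⁻¹ = mk a := by
        have e : t * mk a * t⁻¹ = mk a * ((mk a)⁻¹ * t * mk a * t⁻¹) := by group
        rw [e, h5, mul_one]
      exact h6
    obtain ⟨a, haC, m, hm, h⟩ := hsplit g hg
    obtain ⟨a', haC', m', hm', h'⟩ := hsplit g' hg'
    have e1 : g = g₀ * (a * m) := by rw [← h]; group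
    have e2 : g' = g₀ * (a' * m') := by rw [← h']; group
    have e3 : (g₀ * b' * g₀⁻¹ * g')⁻¹ * (g₀ * b * g₀⁻¹ * g) = m'⁻¹ * (a'⁻¹ * (b'⁻¹ * b) * a) * m := by
      rw [e1, e2]
      group
    rw [e3] at hmem
    have hmem2 : a'⁻¹ * (b'⁻¹ * b) * a ∈ M := by
      have e : a'⁻¹ * (b'⁻¹ * b) * a = m' * (m'⁻¹ * (a'⁻¹ * (b'⁻¹ * b) * a) * m) * m⁻¹ := by group
      rw [e]
      exact M.mul_mem (M.mul_mem hm' hmem) (M.inv_mem hm)
    have hA' : ∀ y, y ∈ C → y ∈ A := fun y hy => ((hmemC y).mp hy).1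
    have hmem3 : a'⁻¹ * (b'⁻¹ * b) * a ∈ A :=
      A.mul_mem (A.mul_mem (A.inv_mem (hA' _ haC')) (A.mul_mem (A.inv_mem hb') hb)) (hA' _ haC)
    have hmem4 := hK₀C (hAMK _ hmem3 hmem2)
    apply hbb
    have e : b'⁻¹ * b = a' * (a'⁻¹ * (b'⁻¹ * b) * a) * a⁻¹ := by group
    rw [e]
    exact C.mul_mem (C.mul_mem haC' hmem4) (C.inv_mem haC)
  -- translates
  let τ : G → G := fun b => g₀ * b * g₀⁻¹
  have hdisj : ∀ b b' : G, b ∈ A → b' ∈ A → b'⁻¹ * b ∉ C →
      Disjoint (F.image fun c : G ⧸ S => τ b • c) (F.image fun c : G ⧸ S => τ b' • c) := by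
    intro b b' hb hb' hbb
    rw [Finset.disjoint_left]
    intro c hc hc'
    obtain ⟨c₁, hc₁, rfl⟩ := Finset.mem_image.mp hc
    obtain ⟨c₂, hc₂, he⟩ := Finset.mem_image.mp hc'
    obtain ⟨g, rfl⟩ := QuotientGroup.mk_surjective c₁
    obtain ⟨g', rfl⟩ := QuotientGroup.mk_surjective c₂
    apply key g g' hc₁ hc₂ b b' hb hb' hbb
    apply hSM
    have e : τ b' • (g' : G ⧸ S) = ((τ b' * g' : G) : G ⧸ S) := rfl
    have e' : τ b • (g : G ⧸ S) = ((τ b * g : G) : G ⧸ S) := rfl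
    rw [e, e'] at he
    exact QuotientGroup.eq.mp he
  have hcardimg : ∀ b : G, (F.image fun c : G ⧸ S => τ b • c).card = F.card := by
    intro b
    apply Finset.card_image_of_injective
    exact MulAction.injective (τ b)
  have hb₁C : (1 : G)⁻¹ * b₁ ∉ C := by
    intro h
    rw [inv_one, one_mul] at h
    exact h1 ((hmemC _).mp h).2
  have hb₂C : (1 : G)⁻¹ * b₂ ∉ C := by
    intro h
    rw [inv_one, one_mul] at h
    exact h2 ((hmemC _).mp h).2
  have hb₁₂C : b₁⁻¹ * b₂ ∉ C := by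
    intro h
    apply h3
    have := ((hmemC _).mp h).2
    simp only [map_mul, map_inv] at this
    exact this
  have hd1 := hdisj b₁ 1 hz₁ (one_mem _) hb₁C
  have hd2 := hdisj b₂ 1 hz₂ (one_mem _) hb₂C
  have hd3 := hdisj b₂ b₁ hz₂ hz₁ hb₁₂C
  have hU : ((F.image fun c : G ⧸ S => τ b₂ • c) ∪ (F.image fun c : G ⧸ S => τ b₁ • c) ∪
      (F.image fun c : G ⧸ S => τ 1 • c)).card = 3 * F.card := by
    rw [Finset.card_union_of_disjoint, Finset.card_union_of_disjoint hd3, hcardimg, hcardimg, hcardimg]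
    · ring
    · rw [Finset.disjoint_union_left]
      exact ⟨hd2, hd1⟩
  rw [← hU]
  exact Finset.card_le_univ _

end Cfsg.Agent.Lib.Flavell
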