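import Mathlib
import Cfsg.Agent.Lib.Ward.Steps
import Cfsg.Agent.Lib.Flavell.Blocks
import Cfsg.Agent.Lib.Flavell.FixBound

/-!
# The case of an abelian normal noncentral subgroup
-/

set_option autoImplicit false
set_option linter.unusedSectionVars false
set_option linter.style.haveILetI false

namespace Cfsg.Agent.Lib.Flavell

open Module Cfsg.Agent.Lib.Ward

variable {G : Type*} [Group G] [Finite G] {k : Type*} [Field k] {V : Type*} [AddCommGroup V] [Module k V]

/-- A commuting family of operators has a common eigenvector. -/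
theorem exists_common_eigenvector [IsAlgClosed k] [FiniteDimensional k V] [Nontrivial V]
    (ρ : G →* End k V) (A : Subgroup G) (hcomm : ∀ u ∈ A, ∀ v ∈ A, u * v = v * u) :
    ∃ (lam : G → k) (w : V), w ≠ 0 ∧ IsWt ρ A lam w := by
  classical
  let F : Set (Submodule k V) := {U | U ≠ ⊥ ∧ ∀ a ∈ A, ∀ v ∈ U, ρ a v ∈ U}
  have hFne : F.Nonempty := ⟨⊤, top_ne_bot, fun _ _ _ _ => trivial⟩
  obtain ⟨U, hU, hUmin⟩ := (wellFounded_lt (α := Submodule k V)).has_min F hFne
  obtain ⟨w, hwU, hw0⟩ := Submodule.exists_mem_ne_zero_of_ne_bot hU.1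
  have key : ∀ g : G, ∃ μ : k, g ∈ A → ρ g w = μ • w := by
    intro g
    by_cases hg : g ∈ A
    · -- the restriction of `ρ g` to `U` has an eigenvalue
      haveI : Nontrivial U := Submodule.nontrivial_iff_ne_bot.mpr hU.1
      haveI : FiniteDimensional k U := inferInstance
      let f : End k U := (ρ g).restrict (hU.2 g hg)
      obtain ⟨μ, hμ⟩ := Module.End.exists_eigenvalue f
      obtain ⟨v, hv⟩ := hμ.exists_hasEigenvector
      have hv1 : ρ g (v : V) = μ • (v : V) := by
        have := congrArg Subtype.val hv.apply_eq_smul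
        simpa [f] using this
      have hv0 : (v : V) ≠ 0 := fun h => hv.2 (Subtype.ext h)
      let E : Submodule k V := U ⊓ LinearMap.ker (ρ g - μ • 1)
      have hEmem : ∀ y, y ∈ E ↔ y ∈ U ∧ ρ g y = μ • y := by
        intro y
        simp [E, Submodule.mem_inf, sub_eq_zero]
      have hEF : E ∈ F := by
        refine ⟨?_, ?_⟩
        · intro h
          have : (v : V) ∈ E := (hEmem _).mpr ⟨v.2, hv1⟩
          rw [h, Submodule.mem_bot] at this
          exact hv0 this
        · intro a ha y hy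
          obtain ⟨hy1, hy2⟩ := (hEmem y).mp hy
          refine (hEmem _).mpr ⟨hU.2 a ha y hy1, ?_⟩
          have e : ρ g (ρ a y) = ρ a (ρ g y) := by
            rw [← rho_mul_apply, hcomm g hg a ha, rho_mul_apply]
          rw [e, hy2, map_smul]
      have hEU : E = U := by
        by_contra hne
        exact hUmin E hEF (lt_of_le_of_ne inf_le_left hne)
      have hwE : w ∈ E := by rw [hEU]; exact hwU
      exact ⟨μ, fun _ => ((hEmem w).mp hwE).2⟩
    · exact ⟨0, fun h => absurd h hg⟩
  choose lam hlam using key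
  exact ⟨lam, w, hw0, fun y hy => hlam y hy⟩

/-- The arithmetic of the abelian case. -/
theorem arith_block {p r d f n : ℕ} (hp : 4 < p) (h1 : p * r ≤ d * ((p - 1) * f + n)) (h2 : 3 * f ≤ n)
    (hd : 0 < d) (hn : 0 < n) : 2 * r < n * d := by
  obtain ⟨t, rfl⟩ : ∃ t, p = t + 5 := ⟨p - 5, by omega⟩
  have e : t + 5 - 1 = t + 4 := by omega
  rw [e] at h1
  by_contra hcon
  push Not at hcon
  have hnd : 0 < n * d := Nat.mul_pos hn hd
  have h3 : 3 * ((t + 5) * r) ≤ d * (((t + 4) * (3 * f)) + 3 * n) := by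
    calc 3 * ((t + 5) * r) ≤ 3 * (d * ((t + 4) * f + n)) := Nat.mul_le_mul_left _ h1
      _ = _ := by ring
  have h4 : d * (((t + 4) * (3 * f)) + 3 * n) ≤ d * (((t + 4) * n) + 3 * n) :=
    Nat.mul_le_mul_left _ (Nat.add_le_add_right (Nat.mul_le_mul_left _ h2) _)
  have h5 : 3 * (t + 5) * (n * d) ≤ 3 * (t + 5) * (2 * r) := Nat.mul_le_mul_left _ hcon
  have h6 : 3 * (t + 5) * (2 * r) = 2 * (3 * ((t + 5) * r)) := by ring
  have h7 : 2 * (d * (((t + 4) * n) + 3 * n)) = 2 * (t + 7) * (n * d) := by ring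
  have h8 : 3 * (t + 5) * (n * d) ≤ 2 * (t + 7) * (n * d) := by
    calc 3 * (t + 5) * (n * d) ≤ 2 * (3 * ((t + 5) * r)) := by rw [← h6]; exact h5
      _ ≤ 2 * (d * (((t + 4) * n) + 3 * n)) := Nat.mul_le_mul_left _ (h3.trans h4)
      _ = _ := h7
  have h9 := Nat.le_of_mul_le_mul_right h8 hnd
  omega

/-- **The abelian case.** -/
theorem case_abelian [Group.IsSolvable G] [IsAlgClosed k] [FiniteDimensional k V] [Nontrivial V]
    (ρ : G →* End k V) (hρ : Function.Injective ρ)
    (hs : ∀ U : Submodule k V, (∀ g, ∀ v ∈ U, ρ g v ∈ U) → U ≠ ⊥ → U = ⊤)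
    {p : ℕ} [hpp : Fact p.Prime] (hp : 3 < p) {x : G} (hx : x ^ p = 1)
    (hgen : Subgroup.normalClosure ({x} : Set G) = ⊤)
    (A : Subgroup G) [hAn : A.Normal] (hcomm : ∀ u ∈ A, ∀ v ∈ A, u * v = v * u)
    (hnc : ∃ a ∈ A, ∃ g : G, g * a ≠ a * g) :
    2 * finrank k (LinearMap.ker (ρ x - 1)) < finrank k V := by
  classical
  obtain ⟨lam, w, hw0, hw⟩ := exists_common_eigenvector ρ A hcomm
  have hN : ∀ g : G, ∀ y ∈ A, g⁻¹ * y * g ∈ A := fun g y hy => by
    have := hAn.conj_mem y hy g⁻¹
    simpa using this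
  let S : Subgroup G := wtStab A lam
  have hSmem : ∀ g, g ∈ S ↔ ∀ y ∈ A, lam (g⁻¹ * y * g) = lam y := by
    intro g
    refine ⟨fun h => h.2, fun h => ⟨?_, h⟩⟩
    refine mem_norm_of_conj (fun y hy => hAn.conj_mem y hy g) (fun y hy => hN g y hy)
  haveI : Fintype (G ⧸ S) := Fintype.ofFinite _
  -- the conjugate weights
  have hconj : ∀ g : G, ∀ v, IsWt ρ A lam v → IsWt ρ A (wtConj g lam) (ρ g v) :=
    fun g v hv => hv.conj (hN g)
  let wt : G → Submodule k V := fun g => wtSpace ρ A (wtConj g lam)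
  have hwtmem : ∀ g v, v ∈ wt g ↔ IsWt ρ A (wtConj g lam) v := fun g v => Iff.rfl
  have hwtconj : ∀ g h v, v ∈ wt h → ρ g v ∈ wt (g * h) := by
    intro g h v hv
    have h1 := ((hwtmem h v).mp hv).conj (hN g)
    rw [hwtmem, wtConj_mul]
    exact h1
  have hwteq : ∀ g g' : G, (g : G ⧸ S) = g' → wt g = wt g' := by
    intro g g' hgg
    have h1 : g⁻¹ * g' ∈ S := QuotientGroup.eq.mp hgg
    have h2 : ∀ y ∈ A, wtConj g lam y = wtConj g' lam y := by
      intro y hy
      have h3 := (hSmem _).mp h1 (g⁻¹ * y * g) (hN g y hy)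
      simp only [wtConj]
      rw [← h3]
      congr 1
      group
    ext v
    exact ⟨fun h => h.congr h2, fun h => h.congr (fun y hy => (h2 y hy).symm)⟩
  let B : G ⧸ S → Submodule k V := fun c => wt (Quotient.out c)
  have hout : ∀ c : G ⧸ S, ((Quotient.out c : G) : G ⧸ S) = c := fun c => QuotientGroup.out_eq' c
  have hB : ∀ g : G, B (g : G ⧸ S) = wt g := fun g => hwteq _ _ (hout _)
  -- action on blocks
  have hBact : ∀ (g : G) (c : G ⧸ S), ∀ v ∈ B c, ρ g v ∈ B (g • c) := by
    intro g c v hv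
    have h1 := hwtconj g _ v hv
    have h2 : g • c = ((g * Quotient.out c : G) : G ⧸ S) := by
      conv_lhs => rw [← hout c]
      rfl
    rw [h2, hB]
    exact h1
  have hind : ∀ v : G ⧸ S → V, (∀ c, v c ∈ B c) → ∑ c, v c = 0 → ∀ c, v c = 0 := by
    intro v hv hs0 c
    refine eq_zero_of_sum_eq_zero (ρ := ρ) (K := A) Finset.univ
      (fun c : G ⧸ S => wtConj (Quotient.out c : G) lam) ?_ v (fun c _ => hv c) hs0 c (Finset.mem_univ _)
    intro c _ c' _ hne
    by_contra hcon
    push Not at hcon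
    apply hne
    rw [← hout c, ← hout c']
    apply QuotientGroup.eq.mpr
    rw [hSmem]
    intro y hy
    have h1 := hcon _ (hAn.conj_mem y hy (Quotient.out c))
    simp only [wtConj] at h1
    have e1 : (Quotient.out c')⁻¹ * (Quotient.out c * y * (Quotient.out c)⁻¹) * Quotient.out c' =
        ((Quotient.out c)⁻¹ * Quotient.out c')⁻¹ * y * ((Quotient.out c)⁻¹ * Quotient.out c') := by group
    have e2 : (Quotient.out c)⁻¹ * (Quotient.out c * y * (Quotient.out c)⁻¹) * Quotient.out c = y := by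
      group
    rw [e1, e2] at h1
    exact h1.symm
  -- spanning
  let Ψ : (∀ c, B c) →ₗ[k] V :=
    { toFun := fun t => ∑ c, (t c : V)
      map_add' := fun a b => by simp [Finset.sum_add_distrib]
      map_smul' := fun a b => by simp [Finset.smul_sum] }
  have hrange : LinearMap.range Ψ = ⊤ := by
    apply hs
    · rintro g _ ⟨t, rfl⟩
      refine ⟨fun c => ⟨ρ g (t (g⁻¹ • c)), ?_⟩, ?_⟩
      · have := hBact g _ _ (t (g⁻¹ • c)).2
        rwa [smul_inv_smul] at this
      · show ∑ c, ρ g (t (g⁻¹ • c)) = ρ g (∑ c, (t c : V))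
        rw [map_sum]
        exact Equiv.sum_comp (MulAction.toPerm g⁻¹) (fun c => ρ g (t c))
    · intro hbot
      have h1 : w ∈ B ((1 : G) : G ⧸ S) := by
        rw [hB]
        show IsWt ρ A (wtConj 1 lam) w
        rw [wtConj_one]
        exact hw
      let t : ∀ c, B c := fun c => if h : c = ((1 : G) : G ⧸ S) then ⟨w, h ▸ h1⟩ else 0
      have h2 : Ψ t = w := by
        show ∑ c, (t c : V) = w
        rw [Finset.sum_eq_single ((1 : G) : G ⧸ S)]
        · simp [t]
        · intro c _ hc
          simp [t, hc]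
        · intro h
          exact absurd (Finset.mem_univ _) h
      have h3 : w ∈ LinearMap.range Ψ := ⟨t, h2⟩
      rw [hbot, Submodule.mem_bot] at h3
      exact hw0 h3
  have hspan : ∀ v : V, ∃ t : G ⧸ S → V, (∀ c, t c ∈ B c) ∧ ∑ c, t c = v := by
    intro v
    have : v ∈ LinearMap.range Ψ := by rw [hrange]; trivial
    obtain ⟨t, ht⟩ := this
    exact ⟨fun c => t c, fun c => (t c).2, ht⟩
  -- dimensions
  have hdim : ∀ c, finrank k (B c) = finrank k (wtSpace ρ A lam) := by
    intro c
    have h1 : B c = (wtSpace ρ A lam).map (ρ (Quotient.out c)) := by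
      apply le_antisymm
      · intro v hv
        refine ⟨ρ (Quotient.out c)⁻¹ v, ?_, rho_apply_inv ρ _ v⟩
        have := hwtconj (Quotient.out c)⁻¹ _ v hv
        rw [inv_mul_cancel] at this
        have h2 : IsWt ρ A (wtConj 1 lam) (ρ (Quotient.out c)⁻¹ v) := this
        rw [wtConj_one] at h2
        exact h2
      · rintro _ ⟨v, hv, rfl⟩
        exact hconj _ v hv
    rw [h1]
    exact (LinearEquiv.finrank_eq (Submodule.equivMapOfInjective (ρ (Quotient.out c)) (fun a b hab => by
      have := congrArg (ρ (Quotient.out c)⁻¹) hab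
      simpa [rho_inv_apply] using this) _)).symm
  -- the block bound
  let π : Equiv.Perm (G ⧸ S) := MulAction.toPerm x
  have hπ : π ^ p = 1 := by
    have : π ^ p = MulAction.toPerm (x ^ p) := by
      exact (map_pow (MulAction.toPermHom G (G ⧸ S)) x p).symm
    rw [this, hx]
    exact map_one (MulAction.toPermHom G (G ⧸ S))
  have hT : ∀ c, ∀ v ∈ B c, ρ x v ∈ B (π c) := fun c v hv => hBact x c v hv
  obtain ⟨hV, hr⟩ := block_bound B hind hspan _ hdim (ρ x) π hT hpp.out hπ
  -- the stabiliser is proper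
  have hS : S ≠ ⊤ := by
    intro htop
    obtain ⟨a, ha, g, hga⟩ := hnc
    have h1 : wtSpace ρ A lam = ⊤ := by
      apply hs
      · intro g v hv
        have h2 := hconj g v hv
        have h3 : g ∈ S := by rw [htop]; trivial
        refine h2.congr fun y hy => ?_
        exact (hSmem g).mp h3 y hy
      · intro hbot
        have : w ∈ wtSpace ρ A lam := hw
        rw [hbot, Submodule.mem_bot] at this
        exact hw0 this
    apply hga
    apply hρ
    ext v
    have hv : ∀ u : V, ρ a u = lam a • u := fun u => by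
      have : u ∈ wtSpace ρ A lam := by rw [h1]; trivial
      exact this a ha
    simp only [map_mul, Module.End.mul_apply]
    rw [hv, map_smul, hv]
  have hfix := fix_bound (p := p) (hpp.out.odd_of_ne_two (by omega)) hx hgen S hS
  -- arithmetic
  have hd0 : 0 < finrank k (wtSpace ρ A lam) := by
    rw [Module.finrank_pos_iff]
    refine Submodule.nontrivial_iff_ne_bot.mpr ?_
    intro hbot
    have : w ∈ wtSpace ρ A lam := hw
    rw [hbot, Submodule.mem_bot] at this
    exact hw0 this
  rw [hV]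
  have hp4 : 4 < p := by
    have h1 : p ≠ 4 := fun h => by
      have := hpp.out
      rw [h] at this
      exact absurd this (by norm_num)
    omega
  refine arith_block hp4 hr ?_ hd0 Fintype.card_pos
  convert hfix using 3
  ext c
  simp [π]

end Cfsg.Agent.Lib.Flavell
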