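import Mathlib
import Cfsg.Agent.Lib.Flavell.Case1
import Cfsg.Agent.Lib.Flavell.Case2
import Cfsg.Agent.Lib.FrobRep.PModular
import Cfsg.Agent.Lib.Solvable.PSeries
import Cfsg.Agent.Lib.Basic.PCore
import Cfsg.Agent.Lib.OddOrder.BG4E

/-!
# Flavell's bound on the fixed space of a generating class of prime order
-/

set_option autoImplicit false
set_option linter.unusedSectionVars false
set_option linter.style.haveILetI false

universe u

namespace Cfsg.Agent.Lib.Flavell

open Module Cfsg Cfsg.Agent.Lib.OddOrder.HHCore Cfsg.Agent.Lib.HallHigman.Core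
open Cfsg.Agent.Lib.Basic.PCore Cfsg.Agent.Lib.Solvable.PSeries

section stepA

variable {G : Type u} [Group G] [Finite G] [Group.IsSolvable G] {k : Type*} [Field k]
  {V : Type*} [AddCommGroup V] [Module k V]

/-- The core for a prime which vanishes in `k` acts trivially on a simple faithful module. -/
theorem pCore_eq_bot_of_faithful [FiniteDimensional k V] [Nontrivial V] (ρ : G →* End k V)
    (hρ : Function.Injective ρ)
    (hs : ∀ U : Submodule k V, (∀ g, ∀ v ∈ U, ρ g v ∈ U) → U ≠ ⊥ → U = ⊤)
    {q : ℕ} [hq : Fact q.Prime] (hqk : (q : k) = 0) : pCore q G = ⊥ := by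
  let S := pCore q G
  haveI hSn : S.Normal := pCore_normal q G
  obtain ⟨v, hv0, hv⟩ := Cfsg.Agent.Lib.FrobRep.PLinear.exists_fixed_vector (P := S) (p := q)
    (pCore_isPGroup q) (ρ.comp S.subtype) hqk
  let U : Submodule k V :=
    { carrier := {w | ∀ s ∈ S, ρ s w = w}
      add_mem' := fun {a b} ha hb s hs => by rw [map_add, ha s hs, hb s hs]
      zero_mem' := fun s _ => map_zero _
      smul_mem' := fun c a ha s hs => by rw [map_smul, ha s hs] }
  have hU : U = ⊤ := by
    apply hs
    · intro g w hw s hs'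
      have h1 : g⁻¹ * s * g ∈ S := by
        have := hSn.conj_mem s hs' g⁻¹
        simpa using this
      have h2 := hw _ h1
      have e : s * g = g * (g⁻¹ * s * g) := by group
      show ρ s (ρ g w) = ρ g w
      rw [← Module.End.mul_apply, ← map_mul, e, map_mul, Module.End.mul_apply, h2]
    · intro hbot
      have : v ∈ U := fun s hs' => hv ⟨s, hs'⟩
      rw [hbot, Submodule.mem_bot] at this
      exact hv0 this
  rw [eq_bot_iff]
  intro s hs'
  rw [Subgroup.mem_bot]
  apply hρ
  rw [map_one]
  ext w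
  have h1 : w ∈ U := by rw [hU]; trivial
  exact h1 s hs'

/-- A noncommutative solvable group has a noncentral core. -/
theorem exists_noncentral_core (hna : ¬ ∀ a b : G, a * b = b * a) :
    ∃ q : ℕ, q.Prime ∧ ¬ pCore q G ≤ Subgroup.center G := by
  by_contra hcon
  push Not at hcon
  have hF : fittingSubgroup G ≤ Subgroup.center G := by
    rw [fittingSubgroup_eq_iSup_pCore]
    refine iSup_le ?_
    rintro ⟨q, hq⟩
    exact hcon q (Nat.prime_of_mem_primeFactors hq)
  apply hna
  have hall : ∀ g : G, g ∈ Subgroup.center G := by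
    intro g
    apply hF
    apply Cfsg.Agent.Lib.OddOrder.BG4.centralizer_fitting_le
    rw [Subgroup.mem_centralizer_iff]
    intro h hh
    exact (Subgroup.mem_center_iff.mp (hF hh) g).symm
  intro a b
  exact Subgroup.mem_center_iff.mp (hall b) a

/-- **Step A**: the case of an algebraically closed field and a faithful module. -/
theorem stepA [IsAlgClosed k] [FiniteDimensional k V] [Nontrivial V] (ρ : G →* End k V)
    (hρ : Function.Injective ρ)
    (hs : ∀ U : Submodule k V, (∀ g, ∀ v ∈ U, ρ g v ∈ U) → U ≠ ⊥ → U = ⊤)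
    {p : ℕ} [hpp : Fact p.Prime] (hp4 : 4 < p) {x : G} (hx : x ^ p = 1) (hx1 : x ≠ 1)
    (hgen : Subgroup.normalClosure ({x} : Set G) = ⊤) (hB : Bd.{u} p (Nat.card G)) :
    2 * finrank k (LinearMap.ker (ρ x - 1)) < finrank k V := by
  classical
  by_cases hab : ∀ a b : G, a * b = b * a
  · -- `x` is central
    have hker : LinearMap.ker (ρ x - 1) = ⊥ := by
      by_contra hne
      have h1 : LinearMap.ker (ρ x - 1) = ⊤ := by
        apply hs _ _ hne
        intro g v hv
        rw [LinearMap.mem_ker, LinearMap.sub_apply, sub_eq_zero] at hv ⊢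
        show ρ x (ρ g v) = ρ g v
        rw [← Module.End.mul_apply, ← map_mul, hab x g, map_mul, Module.End.mul_apply, hv]
        rfl
      apply hx1
      apply hρ
      rw [map_one]
      ext v
      have h2 : v ∈ LinearMap.ker (ρ x - 1) := by rw [h1]; trivial
      rw [LinearMap.mem_ker, LinearMap.sub_apply, sub_eq_zero] at h2
      exact h2
    rw [hker, finrank_bot]
    exact Module.finrank_pos
  -- the choice of `K`
  obtain ⟨q, hq, hqc⟩ := exists_noncentral_core hab
  haveI : Fact q.Prime := ⟨hq⟩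
  have hqk : (q : k) ≠ 0 := by
    intro h0
    apply hqc
    rw [pCore_eq_bot_of_faithful ρ hρ hs h0]
    exact bot_le
  let F : Set (Subgroup G) := {K | K.Normal ∧ K ≤ pCore q G ∧ ¬ K ≤ Subgroup.center G}
  have hFne : F.Nonempty := ⟨pCore q G, pCore_normal q G, le_rfl, hqc⟩
  obtain ⟨K, ⟨hKn, hKS, hKc⟩, hKmin⟩ := (wellFounded_lt (α := Subgroup G)).has_min F hFne
  haveI := hKn
  have hmin : ∀ N : Subgroup G, N.Normal → N < K → N ≤ Subgroup.center G := by
    intro N hN hlt
    by_contra hcon
    exact hKmin N ⟨hN, hlt.le.trans hKS, hcon⟩ hlt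
  by_cases hKab : ∀ a ∈ K, ∀ b ∈ K, a * b = b * a
  · have hnc : ∃ a ∈ K, ∃ g : G, g * a ≠ a * g := by
      by_contra hcon
      push Not at hcon
      apply hKc
      intro a ha
      rw [Subgroup.mem_center_iff]
      exact fun g => hcon a ha g
    exact case_abelian ρ hρ hs (by omega) hx hgen K hKab hnc
  · have hKq : IsPGroup q K := (pCore_isPGroup q).to_le hKS
    exact case_nonabelian ρ hρ hs hp4 hx hgen hB hqk K hKq hKab hmin

/-- **Step A'**: an algebraically closed field and a simple module on which `x` is nontrivial. -/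
theorem stepA' [IsAlgClosed k] [FiniteDimensional k V] [Nontrivial V] (ρ : G →* End k V)
    (hs : ∀ U : Submodule k V, (∀ g, ∀ v ∈ U, ρ g v ∈ U) → U ≠ ⊥ → U = ⊤)
    {p : ℕ} [hpp : Fact p.Prime] (hp4 : 4 < p) {x : G} (hx : x ^ p = 1) (hx1 : ρ x ≠ 1)
    (hgen : Subgroup.normalClosure ({x} : Set G) = ⊤) (hB : Bd.{u} p (Nat.card G)) :
    2 * finrank k (LinearMap.ker (ρ x - 1)) < finrank k V := by
  have hle : Nat.card (G ⧸ ρ.ker) ≤ Nat.card G :=
    Nat.le_of_dvd Nat.card_pos (Subgroup.card_quotient_dvd_card _)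
  have hgen' : Subgroup.normalClosure ({(x : G ⧸ ρ.ker)} : Set (G ⧸ ρ.ker)) = ⊤ := by
    have h1 := Subgroup.map_normalClosure ({x} : Set G) (QuotientGroup.mk' ρ.ker)
      (QuotientGroup.mk'_surjective _)
    rw [hgen, Set.image_singleton, Subgroup.map_top_of_surjective _ (QuotientGroup.mk'_surjective _)] at h1
    exact h1.symm
  let ρ' : G ⧸ ρ.ker →* End k V := QuotientGroup.lift ρ.ker ρ (fun g hg => hg)
  have hρ' : ∀ g : G, ρ' (g : G ⧸ ρ.ker) = ρ g := fun g => QuotientGroup.lift_mk _ _ _
  have hinj : Function.Injective ρ' := by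
    intro a b hab
    obtain ⟨a, rfl⟩ := QuotientGroup.mk_surjective a
    obtain ⟨b, rfl⟩ := QuotientGroup.mk_surjective b
    rw [hρ', hρ'] at hab
    rw [QuotientGroup.eq, MonoidHom.mem_ker, map_mul, ← hab, ← map_mul, inv_mul_cancel, map_one]
  have hsbar : ∀ U : Submodule k V, (∀ g : G ⧸ ρ.ker, ∀ v ∈ U, ρ' g v ∈ U) → U ≠ ⊥ → U = ⊤ := by
    intro U hU hne
    refine hs U (fun g v hv => ?_) hne
    have := hU (g : G ⧸ ρ.ker) v hv
    rwa [hρ'] at this
  have hx' : ((x : G ⧸ ρ.ker)) ^ p = 1 := by
    rw [← QuotientGroup.mk_pow, hx]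
    rfl
  have hx1' : (x : G ⧸ ρ.ker) ≠ 1 := by
    intro h1
    apply hx1
    have h2 : x ∈ ρ.ker := (QuotientGroup.eq_one_iff x).mp h1
    exact h2
  have main := stepA ρ' hinj hsbar hp4 hx' hx1' hgen' (hB.mono hle)
  rw [hρ'] at main
  exact main

end stepA

section base

/-- The kernel under base change. -/
theorem finrank_ker_le_baseChange {k K V : Type*} [Field k] [Field K] [Algebra k K] [AddCommGroup V]
    [Module k V] [FiniteDimensional k V] (f : V →ₗ[k] V) :
    finrank k (LinearMap.ker f) ≤ finrank K (LinearMap.ker (f.baseChange K)) := by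
  let ι : TensorProduct k K (LinearMap.ker f) →ₗ[K] TensorProduct k K V :=
    (LinearMap.ker f).subtype.baseChange K
  have hinj : Function.Injective ι :=
    Module.Flat.lTensor_preserves_injective_linearMap _ (LinearMap.ker f).injective_subtype
  have hmem : ∀ y, ι y ∈ LinearMap.ker (f.baseChange K) := by
    intro y
    have h1 : (f.baseChange K).comp ι = 0 := by
      rw [← LinearMap.baseChange_comp]
      have : f.comp (LinearMap.ker f).subtype = 0 := LinearMap.ext fun v => LinearMap.mem_ker.mp v.2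
      rw [this, LinearMap.baseChange_zero]
    exact LinearMap.congr_fun h1 y
  let ι' := ι.codRestrict _ hmem
  have hinj' : Function.Injective ι' := fun a b hab => hinj (congrArg Subtype.val hab)
  have := LinearMap.finrank_le_finrank_of_injective hinj'
  rwa [Module.finrank_baseChange] at this

end base

section stepB

variable {G : Type u} [Group G] [Finite G] [Group.IsSolvable G]

/-- A minimal invariant subspace. -/
theorem exists_simple_sub₀ {K M : Type*} [Field K] [AddCommGroup M] [Module K M] [FiniteDimensional K M]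
    [Nontrivial M] (σ : G →* End K M) :
    ∃ U : Submodule K M, U ≠ ⊥ ∧ ∃ hU : ∀ y, ∀ v ∈ U, σ y v ∈ U,
      ∀ U₀ : Submodule K U, (∀ g, ∀ v ∈ U₀, resRep σ U hU g v ∈ U₀) → U₀ ≠ ⊥ → U₀ = ⊤ := by
  classical
  let F : Set (Submodule K M) := {U | U ≠ ⊥ ∧ ∀ y, ∀ v ∈ U, σ y v ∈ U}
  have hFne : F.Nonempty := ⟨⊤, top_ne_bot, fun _ _ _ => trivial⟩
  obtain ⟨U, hU, hUmin⟩ := (wellFounded_lt (α := Submodule K M)).has_min F hFne
  obtain ⟨hU0, hUinv⟩ := hU
  refine ⟨U, hU0, hUinv, ?_⟩
  intro U₀ hinv hne
  have h1 : U₀.map U.subtype ≤ U := by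
    rintro _ ⟨v, _, rfl⟩
    exact v.2
  have h2 : U₀.map U.subtype ≠ ⊥ := by
    intro h3
    apply hne
    rw [eq_bot_iff]
    intro v hv
    have h4 : (v : M) ∈ U₀.map U.subtype := ⟨v, hv, rfl⟩
    rw [h3, Submodule.mem_bot] at h4
    rw [Submodule.mem_bot]
    exact Subtype.ext h4
  have h3 : U₀.map U.subtype = U := by
    by_contra hcon
    exact hUmin _ ⟨h2, by
      rintro y _ ⟨v, hv, rfl⟩
      exact ⟨resRep σ U hUinv y v, hinv y v hv, rfl⟩⟩ (lt_of_le_of_ne h1 hcon)
  rw [eq_top_iff]
  intro v _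
  have h4 : (v : M) ∈ U₀.map U.subtype := by
    rw [h3]
    exact v.2
  obtain ⟨v', hv', hvv⟩ := h4
  have : v' = v := Subtype.ext hvv
  rwa [← this]

/-- The induction over the modules on which the averaging operator of `N` vanishes. -/
theorem induct_modules {K : Type*} [Field K] [IsAlgClosed K] (N : Subgroup G) [Fintype N]
    (hN : (Fintype.card N : K) ≠ 0) {p : ℕ} [hpp : Fact p.Prime] (hp4 : 4 < p) {x : G} (hx : x ^ p = 1)
    (hgen : Subgroup.normalClosure ({x} : Set G) = ⊤) (hB : Bd.{u} p (Nat.card G)) :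
    ∀ (m : ℕ) {M : Type _} [AddCommGroup M] [Module K M] [FiniteDimensional K M] [Nontrivial M]
      (σ : G →* End K M), (∑ n : N, σ (n : G)) = 0 → finrank K M = m →
      2 * finrank K (LinearMap.ker (σ x - 1)) < finrank K M := by
  intro m
  induction m using Nat.strong_induction_on with
  | _ m ih =>
    intro M _ _ _ _ σ h0 hm
    obtain ⟨U, hU0, hU, hsU⟩ := exists_simple_sub₀ σ
    haveI : Nontrivial U := Submodule.nontrivial_iff_ne_bot.mpr hU0
    have hne : resRep σ U hU x ≠ 1 := by
      intro h1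
      have hall : ∀ g, resRep σ U hU g = 1 := by
        have h2 : Subgroup.normalClosure ({x} : Set G) ≤ (resRep σ U hU).ker :=
          Subgroup.normalClosure_le_normal (Set.singleton_subset_iff.mpr h1)
        intro g
        have h3 : g ∈ (resRep σ U hU).ker := h2 (by rw [hgen]; trivial)
        exact h3
      obtain ⟨v, hv, hv0⟩ := Submodule.exists_mem_ne_zero_of_ne_bot hU0
      have h4 : ∀ n : N, σ (n : G) v = v := by
        intro n
        have := congrArg (fun f : End K U => ((f ⟨v, hv⟩ : U) : M)) (hall n)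
        exact this
      have h5 := congrArg (fun f : End K M => f v) h0
      simp only [LinearMap.sum_apply, h4, Finset.sum_const, Finset.card_univ, LinearMap.zero_apply] at h5
      rw [← Nat.cast_smul_eq_nsmul K] at h5
      exact hv0 ((smul_eq_zero.mp h5).resolve_left hN)
    have h1 := stepA' (resRep σ U hU) hsU hp4 hx hne hgen hB
    have h2 : finrank K (LinearMap.ker (σ x - 1)) ≤ finrank K (LinearMap.ker (resRep σ U hU x - 1)) +
        finrank K (LinearMap.ker (quotRep σ U hU x - 1)) := finrank_ker_le_sub_add_quot (σ x) U (hU x)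
    have h3 := Submodule.finrank_quotient_add_finrank U
    by_cases hQ : Nontrivial (M ⧸ U)
    · have hQ0 : (∑ n : N, quotRep σ U hU (n : G)) = 0 := by
        ext v
        simp only [LinearMap.comp_apply, Submodule.mkQ_apply, LinearMap.sum_apply, quotRep_mk,
          LinearMap.zero_apply]
        have h5 := congrArg (fun f : End K M => U.mkQ (f v)) h0
        simp only [LinearMap.sum_apply, LinearMap.zero_apply, map_sum, map_zero, Submodule.mkQ_apply] at h5
        exact h5
      have hU1 : 0 < finrank K U := Module.finrank_pos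
      have h4 := ih (finrank K (M ⧸ U)) (by omega) (quotRep σ U hU) hQ0 rfl
      omega
    · rw [not_nontrivial_iff_subsingleton] at hQ
      have h5 : finrank K (M ⧸ U) = 0 := finrank_zero_of_subsingleton
      have h6 : finrank K (LinearMap.ker (quotRep σ U hU x - 1)) = 0 := finrank_zero_of_subsingleton
      omega

/-- **Step B**: an arbitrary field and a faithful module. -/
theorem stepB {k V : Type*} [Field k] [AddCommGroup V] [Module k V] [FiniteDimensional k V] [Nontrivial V]
    {ℓ : ℕ} [hℓ : Fact ℓ.Prime] [CharP k ℓ] (ρ : G →* End k V) (hρ : Function.Injective ρ)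
    (hs : ∀ U : Submodule k V, (∀ g, ∀ v ∈ U, ρ g v ∈ U) → U ≠ ⊥ → U = ⊤)
    {p : ℕ} [hpp : Fact p.Prime] (hp4 : 4 < p) {x : G} (hx : x ^ p = 1) (hx1 : x ≠ 1)
    (hgen : Subgroup.normalClosure ({x} : Set G) = ⊤) (hB : Bd.{u} p (Nat.card G)) :
    2 * finrank k (LinearMap.ker (ρ x - 1)) < finrank k V := by
  classical
  have hO : pCore ℓ G = ⊥ := pCore_eq_bot_of_faithful ρ hρ hs (CharP.cast_eq_zero k ℓ)
  haveI : Nontrivial G := ⟨⟨x, 1, hx1⟩⟩
  have hNne : pPrimeCore ℓ G ≠ ⊥ :=
    (isPSolvable_core_ne_bot (p := ℓ) isPSolvable_of_solvable).resolve_left (not_not.mpr hO)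
  set N := pPrimeCore ℓ G with hN
  haveI hNn : N.Normal := pPrimeCore_normal ℓ G
  letI : Fintype N := Fintype.ofFinite _
  have hNcop : (Nat.card N).Coprime ℓ := pPrimeCore_coprime ℓ
  -- the averaging operator vanishes
  have hsum : ∑ n : N, ρ (n : G) = 0 := by
    let U : Submodule k V :=
      { carrier := {w | ∀ s ∈ N, ρ s w = w}
        add_mem' := fun {a b} ha hb s hs => by rw [map_add, ha s hs, hb s hs]
        zero_mem' := fun s _ => map_zero _
        smul_mem' := fun c a ha s hs => by rw [map_smul, ha s hs] }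
    have hU : U = ⊥ := by
      by_contra hne
      have htop : U = ⊤ := by
        apply hs _ _ hne
        intro g w hw s hs'
        have h1 : g⁻¹ * s * g ∈ N := by
          have := hNn.conj_mem s hs' g⁻¹
          simpa using this
        have h2 := hw _ h1
        have e : s * g = g * (g⁻¹ * s * g) := by group
        show ρ s (ρ g w) = ρ g w
        rw [← Module.End.mul_apply, ← map_mul, e, map_mul, Module.End.mul_apply, h2]
      apply hNne
      rw [eq_bot_iff]
      intro s hs'
      rw [Subgroup.mem_bot]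
      apply hρ
      rw [map_one]
      ext w
      have h1 : w ∈ U := by rw [htop]; trivial
      exact h1 s hs'
    ext v
    have h1 : (∑ n : N, ρ (n : G)) v ∈ U := by
      intro s hs'
      rw [LinearMap.sum_apply, map_sum]
      refine Fintype.sum_equiv (Equiv.mulLeft (⟨s, hs'⟩ : N)) _ _ (fun n => ?_)
      rw [← Module.End.mul_apply, ← map_mul]
      rfl
    rw [hU, Submodule.mem_bot] at h1
    exact h1
  -- base change
  let K := AlgebraicClosure k
  let W := TensorProduct k K V
  let ρ' : G →* End K W := ((Module.End.baseChangeHom k K V).toMonoidHom).comp ρ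
  have hρ'app : ∀ g, ρ' g = (ρ g).baseChange K := fun _ => rfl
  have hsum' : ∑ n : N, ρ' (n : G) = 0 := by
    have h1 : ∑ n : N, ρ' (n : G) = Module.End.baseChangeHom k K V (∑ n : N, ρ (n : G)) := by
      rw [map_sum]
      rfl
    rw [h1, hsum, map_zero]
  have hNK : (Fintype.card N : K) ≠ 0 := by
    have h1 : (Fintype.card N : k) ≠ 0 := by
      intro h0
      rw [CharP.cast_eq_zero_iff k ℓ, ← Nat.card_eq_fintype_card] at h0
      have := Nat.Coprime.eq_one_of_dvd hNcop.symm h0
      exact hℓ.out.one_lt.ne' this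
    intro h0
    apply h1
    have h2 := map_natCast (algebraMap k K) (Fintype.card N)
    rw [h0] at h2
    exact (map_eq_zero_iff _ (algebraMap k K).injective).mp h2
  have hdim : finrank K W = finrank k V := Module.finrank_baseChange
  haveI : Nontrivial W := Module.nontrivial_of_finrank_pos (R := K) (by
    rw [hdim]
    exact Module.finrank_pos)
  have main := induct_modules N hNK hp4 hx hgen hB _ ρ' hsum' rfl
  have e : ρ' x - 1 = (ρ x - 1).baseChange K := by
    have : ρ' x - 1 = Module.End.baseChangeHom k K V (ρ x - 1) := by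
      rw [map_sub, map_one]
      rfl
    exact this
  rw [e, hdim] at main
  have hle := finrank_ker_le_baseChange (K := K) (ρ x - 1)
  exact lt_of_le_of_lt (Nat.mul_le_mul_left 2 hle) main

/-- **The induction.** -/
theorem bound_all {p : ℕ} [hpp : Fact p.Prime] (hp4 : 4 < p) : ∀ n, Bd.{u} p n := by
  intro n
  induction n with
  | zero =>
    intro G _ _ _ hG
    omega
  | succ n ih =>
    intro G _ _ _ hG x hx hgen r _ W _ _ _ ρ hs hne
    have hle : Nat.card (G ⧸ ρ.ker) ≤ Nat.card G :=
      Nat.le_of_dvd Nat.card_pos (Subgroup.card_quotient_dvd_card _)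
    have hgen' : Subgroup.normalClosure ({(x : G ⧸ ρ.ker)} : Set (G ⧸ ρ.ker)) = ⊤ := by
      have h1 := Subgroup.map_normalClosure ({x} : Set G) (QuotientGroup.mk' ρ.ker)
        (QuotientGroup.mk'_surjective _)
      rw [hgen, Set.image_singleton, Subgroup.map_top_of_surjective _ (QuotientGroup.mk'_surjective _)] at h1
      exact h1.symm
    let ρ' : G ⧸ ρ.ker →* End (ZMod r) W := QuotientGroup.lift ρ.ker ρ (fun g hg => hg)
    have hρ' : ∀ g : G, ρ' (g : G ⧸ ρ.ker) = ρ g := fun g => QuotientGroup.lift_mk _ _ _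
    have hinj : Function.Injective ρ' := by
      intro a b hab
      obtain ⟨a, rfl⟩ := QuotientGroup.mk_surjective a
      obtain ⟨b, rfl⟩ := QuotientGroup.mk_surjective b
      rw [hρ', hρ'] at hab
      rw [QuotientGroup.eq, MonoidHom.mem_ker, map_mul, ← hab, ← map_mul, inv_mul_cancel, map_one]
    have hsbar : ∀ U : Submodule (ZMod r) W, (∀ g : G ⧸ ρ.ker, ∀ v ∈ U, ρ' g v ∈ U) → U ≠ ⊥ → U = ⊤ := by
      intro U hU hne
      refine hs U (fun g v hv => ?_) hne
      have := hU (g : G ⧸ ρ.ker) v hv
      rwa [hρ'] at this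
    have hx' : ((x : G ⧸ ρ.ker)) ^ p = 1 := by
      rw [← QuotientGroup.mk_pow, hx]
      rfl
    have hx1' : (x : G ⧸ ρ.ker) ≠ 1 := by
      intro h1
      apply hne
      have h2 : x ∈ ρ.ker := (QuotientGroup.eq_one_iff x).mp h1
      exact h2
    haveI : Nontrivial W := by
      by_contra hW
      rw [not_nontrivial_iff_subsingleton] at hW
      exact hne (Subsingleton.elim _ _)
    have main := stepB (ℓ := r) ρ' hinj hsbar hp4 hx' hx1' hgen' (ih.mono (by omega))
    rw [hρ'] at main
    exact main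

end stepB

end Cfsg.Agent.Lib.Flavell
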