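import Mathlib
import Cfsg.Agent.Lib.Flavell.Main
import Cfsg.Agent.Lib.PGroup.FrattiniBasis
import Cfsg.Agent.Lib.Basic.PCore

/-!
# Flavell's enlargement lemma

`A = ⟨P, P^a⟩` is maximal among solvable subgroups of this form; then a normal `q'`-subgroup of `A`
centralizes every `A`-invariant `q`-subgroup.
-/

set_option autoImplicit false
set_option linter.unusedSectionVars false
set_option linter.style.haveILetI false

universe u

namespace Cfsg.Agent.Lib.Flavell.Enlarge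

open Module Cfsg

section cocycle

variable {Γ : Type*} [Group Γ] [Finite Γ] {q : ℕ} [hq : Fact q.Prime] {W : Type*} [AddCommGroup W]
  [Module (ZMod q) W]

theorem card_ne_zero_of_coprime (R : Subgroup Γ) (hR : (Nat.card R).Coprime q) :
    ((Nat.card R : ℕ) : ZMod q) ≠ 0 := by
  intro h
  rw [ZMod.natCast_eq_zero_iff] at h
  have h1 := Nat.Coprime.eq_one_of_dvd hR.symm h
  exact hq.out.one_lt.ne' h1

/-- Vanishing of the cohomology for a normal subgroup of invertible order without fixed points. -/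
theorem cocycle_trivial (ρ : Γ →* End (ZMod q) W) (R : Subgroup Γ) [hRn : R.Normal]
    (hR : (Nat.card R).Coprime q) (hfix : ∀ w : W, (∀ r ∈ R, ρ r w = w) → w = 0)
    (δ : Γ → W) (hδ : ∀ x y, δ (x * y) = δ x + ρ x (δ y)) :
    ∃ w, ∀ x, δ x = w - ρ x w := by
  classical
  haveI : Fintype R := Fintype.ofFinite R
  have hn := card_ne_zero_of_coprime R hR
  set n : ZMod q := ((Nat.card R : ℕ) : ZMod q) with hndef
  let w : W := n⁻¹ • ∑ r : R, δ r
  have hRw : ∀ s : R, ρ s w = w - δ s := by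
    intro s
    have h1 : ∀ r : R, ρ s (δ r) = δ ((s * r : R)) - δ s := by
      intro r
      have := hδ s r
      push_cast
      rw [this]
      abel
    have h2 : ∑ r : R, ρ s (δ r) = (∑ r : R, δ r) - n • δ s := by
      rw [Finset.sum_congr rfl (fun r _ => h1 r), Finset.sum_sub_distrib]
      congr 1
      · exact Equiv.sum_comp (Equiv.mulLeft s) (fun r : R => δ r)
      · rw [Finset.sum_const, Finset.card_univ, hndef, Nat.card_eq_fintype_card,
          Nat.cast_smul_eq_nsmul]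
    show ρ s (n⁻¹ • ∑ r : R, δ r) = n⁻¹ • (∑ r : R, δ r) - δ s
    rw [map_smul, map_sum, h2, smul_sub, smul_smul, inv_mul_cancel₀ hn, one_smul]
  refine ⟨w, fun x => ?_⟩
  let ε : Γ → W := fun x => δ x - w + ρ x w
  have hε : ∀ x y, ε (x * y) = ε x + ρ x (ε y) := by
    intro x y
    simp only [ε, hδ, map_mul, Module.End.mul_apply, map_add, map_sub]
    abel
  have hεR : ∀ s ∈ R, ε s = 0 := by
    intro s hs
    have := hRw ⟨s, hs⟩
    simp only [ε]
    rw [show ρ s w = ρ (⟨s, hs⟩ : R) w from rfl, this]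
    abel
  have h0 : ε x = 0 := by
    apply hfix
    intro s hs
    have h1 := hε s x
    rw [hεR s hs, zero_add] at h1
    have h2 : s * x = x * (x⁻¹ * s * x) := by group
    have hs' : x⁻¹ * s * x ∈ R := by
      have := hRn.conj_mem s hs x⁻¹
      simpa using this
    rw [h2, hε, hεR _ hs', map_zero, add_zero] at h1
    exact h1.symm
  simp only [ε] at h0
  have : δ x = w - ρ x w := by
    have h3 : δ x - w + ρ x w - (w - w) = 0 := by rw [h0]; abel
    calc δ x = δ x - w + ρ x w + (w - ρ x w) := by abel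
      _ = w - ρ x w := by rw [h0, zero_add]
  exact this

/-- The fixed points of a normal subgroup of invertible order vanish when it acts nontrivially and
fixes each proper invariant subspace pointwise. -/
theorem fix_eq_zero_of_proper (ρ : Γ →* End (ZMod q) W) (R : Subgroup Γ) [hRn : R.Normal]
    (hR : (Nat.card R).Coprime q) (hne : ∃ r ∈ R, ∃ w, ρ r w ≠ w)
    (hprop : ∀ W₀ : Submodule (ZMod q) W, (∀ g, ∀ v ∈ W₀, ρ g v ∈ W₀) → W₀ ≠ ⊤ →
      ∀ v ∈ W₀, ∀ r ∈ R, ρ r v = v) :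
    ∀ w : W, (∀ r ∈ R, ρ r w = w) → w = 0 := by
  classical
  haveI : Fintype R := Fintype.ofFinite R
  have hn := card_ne_zero_of_coprime R hR
  set n : ZMod q := ((Nat.card R : ℕ) : ZMod q) with hndef
  let e : W →ₗ[ZMod q] W := n⁻¹ • ∑ r : R, ρ r
  have he : ∀ w, e w = n⁻¹ • ∑ r : R, ρ r w := by
    intro w
    simp [e, LinearMap.sum_apply]
  have h1 : ∀ (w : W), ∀ s ∈ R, ρ s (e w) = e w := by
    intro w s hs
    rw [he, map_smul, map_sum]
    congr 1
    have : ∀ r : R, ρ s (ρ r w) = ρ ((⟨s, hs⟩ * r : R)) w := by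
      intro r
      push_cast
      rw [map_mul, Module.End.mul_apply]
    rw [Finset.sum_congr rfl (fun r _ => this r)]
    exact Equiv.sum_comp (Equiv.mulLeft (⟨s, hs⟩ : R)) (fun r : R => ρ r w)
  have h2 : ∀ w : W, (∀ r ∈ R, ρ r w = w) → e w = w := by
    intro w hw
    rw [he, Finset.sum_congr rfl (fun (r : R) _ => hw r r.2), Finset.sum_const, Finset.card_univ,
      ← Nat.cast_smul_eq_nsmul (ZMod q), ← Nat.card_eq_fintype_card, ← hndef, smul_smul,
      inv_mul_cancel₀ hn, one_smul]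
  have h3 : ∀ (g : Γ) (w : W), e (ρ g w) = ρ g (e w) := by
    intro g w
    rw [he, he, map_smul, map_sum]
    congr 1
    have hc : ∀ r : R, ρ r (ρ g w) = ρ g (ρ (g⁻¹ * r * g) w) := by
      intro r
      rw [← Module.End.mul_apply, ← Module.End.mul_apply, ← map_mul, ← map_mul]
      congr 2
      group
    rw [Finset.sum_congr rfl (fun r _ => hc r)]
    let φ : R ≃ R :=
      { toFun := fun r => ⟨g⁻¹ * r * g, by
          have := hRn.conj_mem r r.2 g⁻¹
          simpa using this⟩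
        invFun := fun r => ⟨g * r * g⁻¹, hRn.conj_mem r r.2 g⟩
        left_inv := fun r => Subtype.ext (by simp [mul_assoc])
        right_inv := fun r => Subtype.ext (by simp [mul_assoc]) }
    exact Equiv.sum_comp φ (fun r : R => ρ g (ρ r w))
  by_cases hker : LinearMap.ker e = ⊤
  · intro w hw
    have h4 : e w = 0 := by
      have : w ∈ LinearMap.ker e := by rw [hker]; trivial
      exact this
    rw [← h2 w hw, h4]
  · exfalso
    have h4 : ∀ v ∈ LinearMap.ker e, v = 0 := by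
      intro v hv
      have h5 := hprop _ (fun g u hu => by
        rw [LinearMap.mem_ker] at hu ⊢
        rw [h3, hu, map_zero]) hker v hv
      have h6 := h2 v h5
      rw [← h6]
      exact hv
    obtain ⟨r, hr, w, hw⟩ := hne
    apply hw
    have h5 : e w = w := by
      have h6 : w - e w ∈ LinearMap.ker e := by
        rw [LinearMap.mem_ker, map_sub, h2 (e w) (fun s hs => h1 w s hs), sub_self]
      have h7 := h4 _ h6
      exact (sub_eq_zero.mp h7).symm
    rw [← h5]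
    exact h1 w r hr

end cocycle

section data

variable {G : Type u} [Group G]

/-- A module structure on the Frattini quotient of the `A`-invariant subgroup `U`. -/
structure FratData (A U : Subgroup G) (q : ℕ) (W : Type*) [AddCommGroup W] [Module (ZMod q) W] where
  π : G → W
  ρ : ↥A →* End (ZMod q) W
  hUn : ∀ t ∈ A, ∀ u ∈ U, t * u * t⁻¹ ∈ U
  π_mul : ∀ u₁ ∈ U, ∀ u₂ ∈ U, π (u₁ * u₂) = π u₁ + π u₂
  π_surj : ∀ w, ∃ u ∈ U, π u = w
  π_conj : ∀ t : A, ∀ u ∈ U, π (t * u * (t : G)⁻¹) = ρ t (π u)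
  frat : ∀ E : Subgroup G, E ≤ U → (∀ w, ∃ e ∈ E, π e = w) → E = U

variable {A U : Subgroup G} {q : ℕ} {W : Type*} [AddCommGroup W] [Module (ZMod q) W]

namespace FratData

variable (F : FratData A U q W)

theorem π_one : F.π 1 = 0 := by
  have h := F.π_mul 1 U.one_mem 1 U.one_mem
  rw [mul_one] at h
  exact left_eq_add.mp h

theorem π_inv {u : G} (hu : u ∈ U) : F.π u⁻¹ = - F.π u := by
  have h := F.π_mul u hu u⁻¹ (U.inv_mem hu)
  rw [mul_inv_cancel, π_one] at h
  exact eq_neg_of_add_eq_zero_right h.symm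

theorem π_conj' {u e : G} (hu : u ∈ U) (he : e ∈ U) : F.π (u * e * u⁻¹) = F.π e := by
  rw [F.π_mul _ (U.mul_mem hu he) _ (U.inv_mem hu), F.π_mul _ hu _ he, F.π_inv hu]
  abel

theorem π_eq_of {u e : G} (hu : u ∈ U) (he : e ∈ U) (h : F.π (e * u⁻¹) = 0) : F.π e = F.π u := by
  rw [F.π_mul _ he _ (U.inv_mem hu), F.π_inv hu] at h
  exact sub_eq_zero.mp (by rwa [← sub_eq_add_neg] at h)

/-- The dichotomy for a subgroup `D` covering `A` modulo `U`. -/
theorem exists_cocycle (D : Subgroup G) (hDU : ∀ d ∈ D, ∀ u ∈ U, d * u * d⁻¹ ∈ U)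
    (hZ : ∀ t : A, ∃ u ∈ U, u * (t : G) ∈ D)
    (hirr : ∀ W₀ : Submodule (ZMod q) W, (∀ g, ∀ v ∈ W₀, F.ρ g v ∈ W₀) → W₀ ≠ ⊥ → W₀ = ⊤) :
    U ≤ D ∨ ∃ δ : ↥A → W, (∀ (t : A) (u : G), u ∈ U → u * (t : G) ∈ D → δ t = F.π u) ∧
      ∀ x y, δ (x * y) = δ x + F.ρ x (δ y) := by
  classical
  -- The image of `D ∩ U`
  let S : AddSubgroup W :=
    { carrier := {w | ∃ e, e ∈ D ∧ e ∈ U ∧ F.π e = w}
      add_mem' := by
        rintro _ _ ⟨e₁, h₁, h₁', rfl⟩ ⟨e₂, h₂, h₂', rfl⟩
        exact ⟨e₁ * e₂, D.mul_mem h₁ h₂, U.mul_mem h₁' h₂', F.π_mul _ h₁' _ h₂'⟩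
      zero_mem' := ⟨1, D.one_mem, U.one_mem, F.π_one⟩
      neg_mem' := by
        rintro _ ⟨e, h, h', rfl⟩
        exact ⟨e⁻¹, D.inv_mem h, U.inv_mem h', F.π_inv h'⟩ }
  let S' : Submodule (ZMod q) W := AddSubgroup.toZModSubmodule q S
  have hS'mem : ∀ w, w ∈ S' ↔ ∃ e, e ∈ D ∧ e ∈ U ∧ F.π e = w := fun w => Iff.rfl
  have hinv : ∀ g, ∀ v ∈ S', F.ρ g v ∈ S' := by
    intro t v hv
    obtain ⟨e, heD, heU, rfl⟩ := (hS'mem v).1 hv
    obtain ⟨u, hu, hut⟩ := hZ t
    rw [hS'mem]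
    set d := u * (t : G) with hd
    refine ⟨d * e * d⁻¹, D.mul_mem (D.mul_mem hut heD) (D.inv_mem hut), hDU d hut e heU, ?_⟩
    rw [← F.π_conj t e heU]
    have ht : (t : G) = u⁻¹ * d := by rw [hd]; group
    have h1 : (t : G) * e * (t : G)⁻¹ = u⁻¹ * (d * e * d⁻¹) * (u⁻¹)⁻¹ := by
      rw [ht]
      group
    rw [h1, F.π_conj' (U.inv_mem hu) (hDU d hut e heU)]
  by_cases hbot : S' = ⊥
  · right
    have hDT : ∀ e, e ∈ D → e ∈ U → F.π e = 0 := by
      intro e he he'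
      have : F.π e ∈ S' := (hS'mem _).2 ⟨e, he, he', rfl⟩
      rw [hbot] at this
      exact this
    choose c hc hc' using hZ
    have hun : ∀ (t : A) (u : G), u ∈ U → u * (t : G) ∈ D → F.π (c t) = F.π u := by
      intro t u hu hut
      apply F.π_eq_of hu (hc t)
      apply hDT
      · have : c t * u⁻¹ = (c t * (t : G)) * (u * (t : G))⁻¹ := by group
        rw [this]
        exact D.mul_mem (hc' t) (D.inv_mem hut)
      · exact U.mul_mem (hc t) (U.inv_mem hu)
    refine ⟨fun t => F.π (c t), hun, ?_⟩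
    intro x y
    have h1 : c x * ((x : G) * c y * (x : G)⁻¹) ∈ U :=
      U.mul_mem (hc x) (F.hUn x x.2 _ (hc y))
    have h2 : c x * ((x : G) * c y * (x : G)⁻¹) * ((x * y : A) : G) ∈ D := by
      have : c x * ((x : G) * c y * (x : G)⁻¹) * ((x * y : A) : G)
          = (c x * (x : G)) * (c y * (y : G)) := by
        push_cast
        group
      rw [this]
      exact D.mul_mem (hc' x) (hc' y)
    show F.π (c (x * y)) = F.π (c x) + F.ρ x (F.π (c y))
    rw [hun (x * y) _ h1 h2, F.π_mul _ (hc x) _ (F.hUn x x.2 _ (hc y)), F.π_conj x _ (hc y)]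
  · left
    have htop := hirr S' hinv hbot
    have hE := F.frat (D ⊓ U) inf_le_right (by
      intro w
      have : w ∈ S' := by rw [htop]; trivial
      obtain ⟨e, he, he', rfl⟩ := (hS'mem w).1 this
      exact ⟨e, ⟨he, he'⟩, rfl⟩)
    intro u hu
    rw [← hE] at hu
    exact hu.1

end FratData

end data

section construct

variable {G : Type u} [Group G] [Finite G]

/-- Conjugation by an element normalizing `U`, as an automorphism of `U`. -/
def conjU (U : Subgroup G) (t : G) (h : ∀ u ∈ U, t * u * t⁻¹ ∈ U) (h' : ∀ u ∈ U, t⁻¹ * u * t ∈ U) :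
    ↥U ≃* ↥U where
  toFun u := ⟨t * u * t⁻¹, h u u.2⟩
  invFun u := ⟨t⁻¹ * u * t, h' u u.2⟩
  left_inv u := Subtype.ext (by simp [mul_assoc])
  right_inv u := Subtype.ext (by simp [mul_assoc])
  map_mul' a b := Subtype.ext (by simp [mul_assoc])

theorem exists_fratData {A U : Subgroup G} {q : ℕ} [Fact q.Prime] (hUp : IsPGroup q U)
    (hUn : ∀ t ∈ A, ∀ u ∈ U, t * u * t⁻¹ ∈ U) :
    ∃ (W : Type u) (_ : AddCommGroup W) (_ : Module (ZMod q) W), Nonempty (FratData A U q W) := by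
  classical
  obtain ⟨W, i1, i2, π₀, hs, hk⟩ :=
    Cfsg.Agent.Lib.PGroup.FrattiniBasis.exists_vector_space hUp
  letI := i1
  letI := i2
  have hUn' : ∀ t : A, ∀ u ∈ U, (t : G)⁻¹ * u * t ∈ U := by
    intro t u hu
    have := hUn (t : G)⁻¹ (A.inv_mem t.2) u hu
    simpa using this
  let c : A → (↥U ≃* ↥U) := fun t => conjU U t (hUn t t.2) (hUn' t)
  have hc : ∀ (t : A) (u : U), ((c t u : U) : G) = (t : G) * u * (t : G)⁻¹ := fun _ _ => rfl
  have hcker : ∀ t : A, π₀.ker ≤ (π₀.comp (c t).toMonoidHom).ker := by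
    intro t u hu
    rw [hk] at hu
    have h1 := (Subgroup.characteristic_iff_le_comap.mp
      (inferInstance : (frattini ↥U).Characteristic)) (c t) hu
    rw [MonoidHom.mem_ker]
    show π₀ (c t u) = 1
    have h2 : c t u ∈ π₀.ker := by rw [hk]; exact h1
    exact h2
  let M : A → (Multiplicative W →* Multiplicative W) := fun t =>
    π₀.liftOfSurjective hs ⟨π₀.comp (c t).toMonoidHom, hcker t⟩
  have hM : ∀ (t : A) (u : U), M t (π₀ u) = π₀ (c t u) := by
    intro t u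
    exact MonoidHom.liftOfRightInverse_comp_apply π₀ _ _ ⟨π₀.comp (c t).toMonoidHom, hcker t⟩ u
  let lin : A → End (ZMod q) W := fun t =>
    AddMonoidHom.toZModLinearMap q (AddMonoidHom.toMultiplicative.symm (M t))
  have hlin : ∀ (t : A) (u : U),
      lin t (Multiplicative.toAdd (π₀ u)) = Multiplicative.toAdd (π₀ (c t u)) := by
    intro t u
    show Multiplicative.toAdd (M t (Multiplicative.ofAdd (Multiplicative.toAdd (π₀ u)))) = _
    rw [ofAdd_toAdd, hM]
  have hsW : ∀ w : W, ∃ u : U, Multiplicative.toAdd (π₀ u) = w := by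
    intro w
    obtain ⟨u, hu⟩ := hs (Multiplicative.ofAdd w)
    exact ⟨u, by rw [hu]; rfl⟩
  let ρ : A →* End (ZMod q) W :=
    { toFun := lin
      map_one' := by
        refine LinearMap.ext fun w => ?_
        obtain ⟨u, rfl⟩ := hsW w
        rw [hlin]
        have : c 1 u = u := Subtype.ext (by rw [hc]; simp)
        rw [this]
        rfl
      map_mul' := by
        intro s t
        refine LinearMap.ext fun w => ?_
        obtain ⟨u, rfl⟩ := hsW w
        rw [Module.End.mul_apply, hlin, hlin, hlin]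
        have : c (s * t) u = c s (c t u) := Subtype.ext (by
          rw [hc, hc, hc]
          push_cast
          group)
        rw [this] }
  have hρ : ∀ (t : A) (u : U),
      ρ t (Multiplicative.toAdd (π₀ u)) = Multiplicative.toAdd (π₀ (c t u)) := hlin
  let π : G → W := fun g => if h : g ∈ U then Multiplicative.toAdd (π₀ ⟨g, h⟩) else 0
  have hπ : ∀ u : U, π u = Multiplicative.toAdd (π₀ u) := by
    intro u
    show (if h : (u : G) ∈ U then Multiplicative.toAdd (π₀ ⟨u, h⟩) else 0) = _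
    rw [dif_pos u.2]
  refine ⟨W, i1, i2, ⟨{ π := π, ρ := ρ, hUn := hUn, π_mul := ?_, π_surj := ?_, π_conj := ?_, frat := ?_ }⟩⟩
  · intro u₁ h₁ u₂ h₂
    have := hπ ⟨u₁, h₁⟩ 
    have h' := hπ ⟨u₂, h₂⟩
    have h'' := hπ (⟨u₁, h₁⟩ * ⟨u₂, h₂⟩)
    simp only at this h'
    rw [show (((⟨u₁, h₁⟩ * ⟨u₂, h₂⟩ : U)) : G) = u₁ * u₂ from rfl, map_mul] at h''
    rw [h'', this, h']
    rfl
  · intro w
    obtain ⟨u, rfl⟩ := hsW w
    exact ⟨u, u.2, hπ u⟩
  · intro t u hu
    have h1 := hπ (c t ⟨u, hu⟩)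
    rw [hc] at h1
    have h2 := hπ ⟨u, hu⟩
    simp only at h1 h2
    rw [h1, h2, hρ]
  · intro E hE hcov
    have hK : E.subgroupOf U ⊔ frattini ↥U = ⊤ := by
      rw [eq_top_iff]
      intro u _
      obtain ⟨e, he, hπe⟩ := hcov (π u)
      have heU := hE he
      have h1 : (⟨e, heU⟩ : U)⁻¹ * u ∈ frattini ↥U := by
        rw [← hk, MonoidHom.mem_ker, map_mul, map_inv]
        rw [hπ u] at hπe
        have h2 := hπ ⟨e, heU⟩
        rw [hπe] at h2
        have h3 : π₀ ⟨e, heU⟩ = π₀ u := Multiplicative.toAdd.injective h2.symm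
        rw [h3, inv_mul_cancel]
      have h2 : u = (⟨e, heU⟩ : U) * ((⟨e, heU⟩ : U)⁻¹ * u) := by group
      rw [h2]
      exact Subgroup.mul_mem_sup (show (⟨e, heU⟩ : U) ∈ E.subgroupOf U from he) h1
    have hK' := frattini_nongenerating hK
    refine le_antisymm hE fun u hu => ?_
    have : (⟨u, hu⟩ : U) ∈ E.subgroupOf U := by rw [hK']; trivial
    exact this

end construct

section core

variable {G : Type u} [Group G] [Finite G]

/-- `A ⊔ U` is solvable when `A` normalizes `U`, both solvable. -/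
theorem isSolvable_sup_of_le_normalizer {A U : Subgroup G} (hA : Group.IsSolvable A)
    (hU : Group.IsSolvable U) (h : A ≤ Subgroup.normalizer (U : Set G)) :
    Group.IsSolvable ↥(A ⊔ U) := by
  let S := A ⊔ U
  let US : Subgroup S := U.subgroupOf S
  have hSn : S ≤ Subgroup.normalizer (U : Set G) := sup_le h Subgroup.le_normalizer
  haveI hUSn : US.Normal :=
    (Subgroup.normal_subgroupOf_iff_le_normalizer (le_sup_right : U ≤ S)).mpr hSn
  haveI : Group.IsSolvable US :=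
    Group.isSolvable_of_isSolvable_injective (f := (Subgroup.subgroupOfEquivOfLe (le_sup_right : U ≤ S)).toMonoidHom)
      (MulEquiv.injective _)
  let g : A →* (↥S ⧸ US) := (QuotientGroup.mk' US).comp (Subgroup.inclusion (le_sup_left : A ≤ S))
  haveI : Group.IsSolvable (↥S ⧸ US) := by
    refine Group.isSolvable_of_surjective (f := g) ?_
    intro y
    obtain ⟨⟨s, hs⟩, rfl⟩ := QuotientGroup.mk'_surjective US y
    have hs' : s ∈ (↑(A ⊔ U) : Set G) := hs
    rw [Subgroup.coe_mul_of_left_le_normalizer_right A U h] at hs'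
    obtain ⟨t, ht, u, hu, rfl⟩ := hs'
    refine ⟨⟨t, ht⟩, ?_⟩
    show ((⟨t, Subgroup.mem_sup_left ht⟩ : S) : ↥S ⧸ US) = ((⟨t * u, hs⟩ : S) : ↥S ⧸ US)
    rw [QuotientGroup.eq]
    show t⁻¹ * (t * u) ∈ U
    simpa using hu
  exact Group.isSolvable_of_ker_le_range US.subtype (QuotientGroup.mk' US) (by
    intro x hx
    rw [QuotientGroup.ker_mk'] at hx
    exact ⟨⟨x, hx⟩, rfl⟩)

/-- Hypotheses on `A`. -/
structure MaxHyp (P A : Subgroup G) (p : ℕ) : Prop where
  hp : 3 < p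
  hP : Nat.card P = p
  hs : Group.IsSolvable ↥A
  hex : ∃ a ∈ A, A = P ⊔ P.map (MulAut.conj a).toMonoidHom
  hmax : ∀ B : Subgroup G, A ≤ B → Group.IsSolvable ↥B →
    (∃ b ∈ B, B = P ⊔ P.map (MulAut.conj b).toMonoidHom) → B = A

theorem eq_one_of_pow_eq_one_of_coprime {q k : ℕ} {s : G} (hk : k.Coprime q) {m : ℕ}
    (h1 : s ^ k = 1) (h2 : s ^ (q ^ m) = 1) : s = 1 := by
  have h3 := orderOf_dvd_of_pow_eq_one h1
  have h4 := orderOf_dvd_of_pow_eq_one h2
  have h5 : orderOf s ∣ Nat.gcd k (q ^ m) := Nat.dvd_gcd h3 h4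
  rw [Nat.Coprime.pow_right m hk |>.gcd_eq_one, Nat.dvd_one] at h5
  exact orderOf_eq_one_iff.mp h5

/-- Commutation from commuting on a "section". -/
theorem comm_of_section {r u s : G} {k q m : ℕ} (hk : k.Coprime q) (hrk : r ^ k = 1)
    (hs : s ^ (q ^ m) = 1) (hrs : r * s = s * r) (h : r * u * r⁻¹ = s * u) : r * u = u * r := by
  have h1 : ∀ i : ℕ, r ^ i * u * (r ^ i)⁻¹ = s ^ i * u := by
    intro i
    induction i with
    | zero => simp
    | succ i ih =>
      have hcomm : Commute r s := hrs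
      calc r ^ (i + 1) * u * (r ^ (i + 1))⁻¹ = r ^ i * (r * u * r⁻¹) * (r ^ i)⁻¹ := by
            rw [pow_succ, mul_inv_rev]; group
        _ = r ^ i * (s * u) * (r ^ i)⁻¹ := by rw [h]
        _ = s * (r ^ i * u * (r ^ i)⁻¹) := by
            have : r ^ i * s = s * r ^ i := (hcomm.pow_left i).eq
            rw [← mul_assoc, this]; group
        _ = s ^ (i + 1) * u := by rw [ih, pow_succ']; group
  have h2 := h1 k
  rw [hrk] at h2
  simp only [inv_one, one_mul, mul_one] at h2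
  have h3 : s ^ k = 1 := by
    have := congrArg (· * u⁻¹) h2
    simpa using this.symm
  have h4 := eq_one_of_pow_eq_one_of_coprime hk h3 hs
  rw [h4, one_mul] at h
  calc r * u = r * u * r⁻¹ * r := by group
    _ = u * r := by rw [h]

variable {P A : Subgroup G} {p : ℕ} [hpp : Fact p.Prime]

/-- **Flavell's enlargement.** A normal `q'`-subgroup of `A` centralizes every `A`-invariant
`q`-subgroup. -/
theorem central_of_coprime (H : MaxHyp P A p) {q : ℕ} [hq : Fact q.Prime] (R : Subgroup ↥A)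
    [hRn : R.Normal] (hRc : (Nat.card R).Coprime q) (U : Subgroup G) (hUp : IsPGroup q U)
    (hUn : ∀ t ∈ A, ∀ u ∈ U, t * u * t⁻¹ ∈ U) : ∀ r ∈ R, ∀ u ∈ U, (r : G) * u = u * r := by
  classical
  induction U using WellFoundedLT.induction with
  | ind U ih =>
  by_contra hcon
  push Not at hcon
  obtain ⟨r₀, hr₀, u₀, hu₀, hne⟩ := hcon
  obtain ⟨W, i1, i2, ⟨F⟩⟩ := exists_fratData hUp hUn
  letI := i1
  letI := i2
  haveI hWfin : Finite W := Finite.of_surjective (fun u : U => F.π u) (fun w => by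
    obtain ⟨u, hu, h⟩ := F.π_surj w
    exact ⟨⟨u, hu⟩, h⟩)
  haveI : FiniteDimensional (ZMod q) W := Module.Finite.of_finite
  have hW : Nontrivial W := by
    by_contra h
    rw [not_nontrivial_iff_subsingleton] at h
    have h1 := F.frat ⊥ bot_le (fun w => ⟨1, one_mem _, Subsingleton.elim _ _⟩)
    rw [← h1, Subgroup.mem_bot] at hu₀
    apply hne
    rw [hu₀]
    group
  -- preimages of subspaces
  let Nn : Submodule (ZMod q) W → Subgroup G := fun W₀ =>
    { carrier := {u | u ∈ U ∧ F.π u ∈ W₀}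
      mul_mem' := fun {a b} ha hb =>
        ⟨U.mul_mem ha.1 hb.1, by rw [F.π_mul _ ha.1 _ hb.1]; exact W₀.add_mem ha.2 hb.2⟩
      one_mem' := ⟨U.one_mem, by rw [F.π_one]; exact W₀.zero_mem⟩
      inv_mem' := fun {a} ha =>
        ⟨U.inv_mem ha.1, by rw [F.π_inv ha.1]; exact W₀.neg_mem ha.2⟩ }
  have hNn : ∀ W₀ u, u ∈ Nn W₀ ↔ u ∈ U ∧ F.π u ∈ W₀ := fun _ _ => Iff.rfl
  have hNinv : ∀ W₀ : Submodule (ZMod q) W, (∀ g, ∀ v ∈ W₀, F.ρ g v ∈ W₀) →
      ∀ t ∈ A, ∀ u ∈ Nn W₀, t * u * t⁻¹ ∈ Nn W₀ := by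
    intro W₀ hinv t ht u hu
    refine ⟨hUn t ht u hu.1, ?_⟩
    have := F.π_conj ⟨t, ht⟩ u hu.1
    simp only at this
    rw [this]
    exact hinv _ _ hu.2
  have hNlt : ∀ W₀ : Submodule (ZMod q) W, W₀ ≠ ⊤ → Nn W₀ < U := by
    intro W₀ hne'
    refine lt_of_le_of_ne (fun u hu => hu.1) ?_
    intro h
    apply hne'
    rw [eq_top_iff]
    intro w _
    obtain ⟨u, hu, rfl⟩ := F.π_surj w
    rw [← h] at hu
    exact hu.2
  have hNc : ∀ W₀ : Submodule (ZMod q) W, (∀ g, ∀ v ∈ W₀, F.ρ g v ∈ W₀) → W₀ ≠ ⊤ →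
      ∀ r ∈ R, ∀ u ∈ Nn W₀, (r : G) * u = u * r := by
    intro W₀ hinv hne'
    exact ih (Nn W₀) (hNlt W₀ hne') (hUp.to_le (hNlt W₀ hne').le) (hNinv W₀ hinv)
  have hprop : ∀ W₀ : Submodule (ZMod q) W, (∀ g, ∀ v ∈ W₀, F.ρ g v ∈ W₀) → W₀ ≠ ⊤ →
      ∀ v ∈ W₀, ∀ r ∈ R, F.ρ r v = v := by
    intro W₀ hinv hne' v hv r hr
    obtain ⟨n, hnU, rfl⟩ := F.π_surj v
    have hc := hNc W₀ hinv hne' r hr n ⟨hnU, hv⟩
    rw [← F.π_conj r n hnU, hc]
    congr 1
    group
  have hnontriv : ∃ r ∈ R, ∃ w, F.ρ r w ≠ w := by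
    by_contra hall
    push Not at hall
    apply hne
    set s := (r₀ : G) * u₀ * (r₀ : G)⁻¹ * u₀⁻¹ with hsdef
    have hsU : s ∈ U := U.mul_mem (hUn _ r₀.2 _ hu₀) (U.inv_mem hu₀)
    have hsπ : F.π s = 0 := by
      rw [hsdef, F.π_mul _ (hUn _ r₀.2 _ hu₀) _ (U.inv_mem hu₀), F.π_conj r₀ _ hu₀, hall r₀ hr₀,
        F.π_inv hu₀, add_neg_cancel]
    have hsN : s ∈ Nn ⊥ := ⟨hsU, by rw [hsπ]; exact Submodule.zero_mem _⟩
    have hrs := hNc ⊥ (fun g v hv => by
      rw [Submodule.mem_bot] at hv ⊢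
      rw [hv, map_zero]) bot_ne_top r₀ hr₀ s hsN
    obtain ⟨m, hm⟩ := (IsPGroup.iff_orderOf.mp hUp) ⟨s, hsU⟩
    have hsm : s ^ (q ^ m) = 1 := by
      have h1 := orderOf_dvd_of_pow_eq_one (pow_orderOf_eq_one (⟨s, hsU⟩ : U))
      have h2 : (⟨s, hsU⟩ : U) ^ (q ^ m) = 1 := by rw [← hm]; exact pow_orderOf_eq_one _
      exact congrArg Subtype.val h2
    have hrk : (r₀ : G) ^ Nat.card R = 1 := by
      have h1 : (⟨r₀, hr₀⟩ : R) ^ Nat.card R = 1 := pow_card_eq_one'
      calc (r₀ : G) ^ Nat.card R = (((⟨r₀, hr₀⟩ : R) ^ Nat.card R : R) : A) := rfl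
        _ = 1 := by rw [h1]; rfl
    apply comm_of_section hRc hrk hsm hrs
    rw [hsdef]
    group
  have hfix := fix_eq_zero_of_proper F.ρ R hRc hnontriv hprop
  have hirr : ∀ W₀ : Submodule (ZMod q) W, (∀ g, ∀ v ∈ W₀, F.ρ g v ∈ W₀) → W₀ ≠ ⊥ → W₀ = ⊤ := by
    intro W₀ hinv hbot
    by_contra htop
    apply hbot
    rw [eq_bot_iff]
    intro v hv
    exact hfix v (fun r hr => hprop W₀ hinv htop v hv r hr)
  -- the group `A`
  obtain ⟨a, ha, hA⟩ := H.hex
  haveI hAs : Group.IsSolvable ↥A := H.hs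
  have hPA : P ≤ A := by rw [hA]; exact le_sup_left
  have hPaA : P.map (MulAut.conj a).toMonoidHom ≤ A := by rw [hA]; exact le_sup_right
  haveI hcyc : IsCyclic P := isCyclic_of_prime_card H.hP
  obtain ⟨⟨x, hxP⟩, hgenx⟩ := IsCyclic.exists_generator (α := P)
  have hPz : ∀ g ∈ P, ∃ i : ℤ, x ^ i = g := by
    intro g hg
    obtain ⟨i, hi⟩ := hgenx ⟨g, hg⟩
    exact ⟨i, by simpa using congrArg Subtype.val hi⟩
  have hxp : x ^ p = 1 := by
    have h1 : (⟨x, hxP⟩ : P) ^ Nat.card P = 1 := pow_card_eq_one'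
    rw [H.hP] at h1
    simpa using congrArg Subtype.val h1
  let x' : ↥A := ⟨x, hPA hxP⟩
  let a' : ↥A := ⟨a, ha⟩
  let y' : ↥A := a' * x' * a'⁻¹
  have hgenK : ∀ K : Subgroup ↥A, K.Normal → x' ∈ K → K = ⊤ := by
    intro K hK hxK
    have hle : A ≤ K.map A.subtype := by
      have h1 : ∀ g (hg : g ∈ P), g ∈ K.map A.subtype := by
        intro g hg
        obtain ⟨i, rfl⟩ := hPz g hg
        exact (K.map A.subtype).zpow_mem ⟨x', hxK, rfl⟩ i
      refine hA.le.trans (sup_le (fun g hg => h1 g hg) ?_)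
      rintro _ ⟨g, hg, rfl⟩
      obtain ⟨z, hz, hzg⟩ := h1 g hg
      refine ⟨a' * z * a'⁻¹, hK.conj_mem z hz a', ?_⟩
      show a * z * a⁻¹ = _
      rw [show (z : G) = g from hzg]
      rfl
    rw [eq_top_iff]
    intro z _
    obtain ⟨z', hz', hzz⟩ := hle z.2
    have : z' = z := Subtype.ext hzz
    rwa [← this]
  have hgenK' : ∀ K : Subgroup ↥A, K.Normal → y' ∈ K → K = ⊤ := by
    intro K hK hyK
    apply hgenK K hK
    have := hK.conj_mem y' hyK a'⁻¹
    have e : x' = a'⁻¹ * y' * a'⁻¹⁻¹ := by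
      show x' = a'⁻¹ * (a' * x' * a'⁻¹) * a'⁻¹⁻¹
      group
    rw [e]
    exact this
  have hkertop : ∀ K : Subgroup ↥A, K = ⊤ → F.ρ.ker = K → False := by
    intro K hK hK'
    obtain ⟨r, _, w, hw⟩ := hnontriv
    apply hw
    have hr : r ∈ F.ρ.ker := by rw [hK', hK]; trivial
    rw [MonoidHom.mem_ker] at hr
    rw [hr]
    rfl
  have hne1 : F.ρ x' ≠ 1 := fun h1 =>
    hkertop _ (hgenK F.ρ.ker inferInstance h1) rfl
  have hne2 : F.ρ y' ≠ 1 := fun h1 =>
    hkertop _ (hgenK' F.ρ.ker inferInstance h1) rfl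
  have hxp' : x' ^ p = 1 := Subtype.ext (by simpa using hxp)
  have hyp' : y' ^ p = 1 := by
    show (a' * x' * a'⁻¹) ^ p = 1
    rw [conj_pow, hxp']
    group
  have hg1 : Subgroup.normalClosure ({x'} : Set ↥A) = ⊤ :=
    hgenK _ inferInstance (Subgroup.subset_normalClosure (Set.mem_singleton _))
  have hg2 : Subgroup.normalClosure ({y'} : Set ↥A) = ⊤ :=
    hgenK' _ inferInstance (Subgroup.subset_normalClosure (Set.mem_singleton _))
  have hp4 : 4 < p := by
    have h1 : p ≠ 4 := fun h => by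
      have := (Fact.out : p.Prime)
      rw [h] at this
      exact absurd this (by norm_num)
    have := H.hp
    omega
  have hB := Cfsg.Agent.Lib.Flavell.bound_all (p := p) hp4 (Nat.card A + 1)
  have hb1 := hB ↥A (Nat.lt_succ_self _) x' hxp' hg1 q W F.ρ hirr hne1
  have hb2 := hB ↥A (Nat.lt_succ_self _) y' hyp' hg2 q W F.ρ hirr hne2
  have hsup : LinearMap.ker (F.ρ x' - 1) ⊔ LinearMap.ker (F.ρ y' - 1) ≠ ⊤ := by
    intro h
    have h1 := Submodule.finrank_add_le_finrank_add_finrank (LinearMap.ker (F.ρ x' - 1))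
      (LinearMap.ker (F.ρ y' - 1))
    rw [h, finrank_top] at h1
    omega
  obtain ⟨w₀, hw₀⟩ : ∃ w₀, w₀ ∉ LinearMap.ker (F.ρ x' - 1) ⊔ LinearMap.ker (F.ρ y' - 1) := by
    by_contra hall
    push Not at hall
    exact hsup (eq_top_iff.mpr fun w _ => hall w)
  obtain ⟨v, hvU, rfl⟩ := F.π_surj w₀
  -- the enlarged group
  set b := v * a with hb
  set D := P ⊔ P.map (MulAut.conj b).toMonoidHom with hD
  have hDconj : ∀ g ∈ P, v * (a * g * a⁻¹) * v⁻¹ ∈ D := by
    intro g hg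
    refine Subgroup.mem_sup_right ⟨g, hg, ?_⟩
    show (MulAut.conj b) g = _
    rw [MulAut.conj_apply, hb]
    group
  have hnA : A ≤ Subgroup.normalizer (U : Set G) := by
    intro t ht
    rw [Subgroup.mem_normalizer_iff]
    intro u
    refine ⟨fun hu => hUn t ht u hu, fun hu => ?_⟩
    have := hUn t⁻¹ (A.inv_mem ht) _ hu
    simpa [mul_assoc] using this
  have hnY : A ⊔ U ≤ Subgroup.normalizer (U : Set G) := sup_le hnA Subgroup.le_normalizer
  have hDY : D ≤ A ⊔ U := by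
    refine sup_le (hPA.trans le_sup_left) ?_
    rintro _ ⟨g, hg, rfl⟩
    have h1 : a * g * a⁻¹ ∈ A := hPaA ⟨g, hg, rfl⟩
    have e : (MulAut.conj b).toMonoidHom g = v * (a * g * a⁻¹) * v⁻¹ := by
      show (MulAut.conj b) g = _
      rw [MulAut.conj_apply, hb]
      group
    rw [e]
    exact Subgroup.mul_mem _ (Subgroup.mul_mem _ (Subgroup.mem_sup_right hvU)
      (Subgroup.mem_sup_left h1)) (Subgroup.mem_sup_right (U.inv_mem hvU))
  have hAUD : A ≤ U ⊔ D := by
    have h1 : P ≤ U ⊔ D := (le_sup_left : P ≤ D).trans le_sup_right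
    have h2 : P.map (MulAut.conj a).toMonoidHom ≤ U ⊔ D := by
      rintro _ ⟨g, hg, rfl⟩
      have e : (MulAut.conj a).toMonoidHom g = v⁻¹ * (v * (a * g * a⁻¹) * v⁻¹) * v := by
        show (MulAut.conj a) g = _
        rw [MulAut.conj_apply]
        group
      rw [e]
      exact Subgroup.mul_mem _ (Subgroup.mul_mem _ (Subgroup.mem_sup_left (U.inv_mem hvU))
        (Subgroup.mem_sup_right (hDconj g hg))) (Subgroup.mem_sup_left hvU)
    exact hA.le.trans (sup_le h1 h2)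
  have hDnorm : D ≤ Subgroup.normalizer (U : Set G) := hDY.trans hnY
  have hDU : ∀ d ∈ D, ∀ u ∈ U, d * u * d⁻¹ ∈ U := by
    intro d hd u hu
    exact (Subgroup.mem_normalizer_iff.mp (hDnorm hd) u).mp hu
  have hZ : ∀ t : A, ∃ u ∈ U, u * (t : G) ∈ D := by
    intro t
    have h1 : (t : G) ∈ (↑(U ⊔ D) : Set G) := hAUD t.2
    rw [Subgroup.coe_mul_of_right_le_normalizer_left U D hDnorm] at h1
    obtain ⟨u, hu, d, hd, hud⟩ := h1
    refine ⟨u⁻¹, U.inv_mem hu, ?_⟩
    rw [← hud]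
    simpa using hd
  rcases F.exists_cocycle D hDU hZ hirr with hUD | ⟨δ, hδu, hδc⟩
  · -- `U ≤ D`
    have hAD : A ≤ D := by
      have := hAUD
      rwa [sup_eq_right.mpr hUD] at this
    have hUs : Group.IsSolvable U := by
      haveI := hUp.isNilpotent
      infer_instance
    have hYs := isSolvable_sup_of_le_normalizer hAs hUs hnA
    have hDs : Group.IsSolvable ↥D :=
      Group.isSolvable_of_isSolvable_injective (f := Subgroup.inclusion hDY) (Subgroup.inclusion_injective hDY)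
    have hDA := H.hmax D hAD hDs ⟨b, D.mul_mem (hUD hvU) (hAD ha), rfl⟩
    have hUA : U ≤ A := hDA ▸ hUD
    apply hne
    set s := (r₀ : G) * u₀ * (r₀ : G)⁻¹ * u₀⁻¹ with hsdef
    have hsU : s ∈ U := U.mul_mem (hUn _ r₀.2 _ hu₀) (U.inv_mem hu₀)
    have hsR : (⟨s, hUA hsU⟩ : A) ∈ R := by
      have h1 := hRn.conj_mem r₀⁻¹ (R.inv_mem hr₀) ⟨u₀, hUA hu₀⟩
      have h2 := R.mul_mem hr₀ h1
      convert h2 using 1
      apply Subtype.ext
      simp [hsdef, mul_assoc]
    obtain ⟨m, hm⟩ := (IsPGroup.iff_orderOf.mp hUp) ⟨s, hsU⟩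
    have hsm : s ^ (q ^ m) = 1 := by
      have h2 : (⟨s, hsU⟩ : U) ^ (q ^ m) = 1 := by rw [← hm]; exact pow_orderOf_eq_one _
      exact congrArg Subtype.val h2
    have hsk : s ^ Nat.card R = 1 := by
      have h1 : (⟨⟨s, hUA hsU⟩, hsR⟩ : R) ^ Nat.card R = 1 := pow_card_eq_one'
      calc s ^ Nat.card R = (((⟨⟨s, hUA hsU⟩, hsR⟩ : R) ^ Nat.card R : R) : A) := rfl
        _ = 1 := by rw [h1]; rfl
    have hs1 := eq_one_of_pow_eq_one_of_coprime hRc hsk hsm
    have h3 : (r₀ : G) * u₀ * (r₀ : G)⁻¹ = u₀ := by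
      have : (r₀ : G) * u₀ * (r₀ : G)⁻¹ * u₀⁻¹ = 1 := hs1
      exact mul_inv_eq_one.mp this
    calc (r₀ : G) * u₀ = (r₀ : G) * u₀ * (r₀ : G)⁻¹ * r₀ := by group
      _ = u₀ * r₀ := by rw [h3]
  · -- the cocycle
    obtain ⟨w, hw⟩ := cocycle_trivial F.ρ R hRc hfix δ hδc
    have h1 : δ x' = 0 := by
      have hmem : (1 : G) * (x' : G) ∈ D := by
        rw [one_mul]
        exact Subgroup.mem_sup_left hxP
      rw [hδu x' 1 U.one_mem hmem, F.π_one]
    have hw1 : w ∈ LinearMap.ker (F.ρ x' - 1) := by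
      have h2 := hw x'
      rw [h1] at h2
      rw [LinearMap.mem_ker, LinearMap.sub_apply, Module.End.one_apply]
      have := sub_eq_zero.mp h2.symm
      rw [← this, sub_self]
    have hyy : (y' : G) = a * x * a⁻¹ := rfl
    have hyU : (y' : G) * v⁻¹ * (y' : G)⁻¹ ∈ U := hUn _ y'.2 _ (U.inv_mem hvU)
    have h3 : δ y' = F.π v - F.ρ y' (F.π v) := by
      have hmem : (v * ((y' : G) * v⁻¹ * (y' : G)⁻¹)) * (y' : G) ∈ D := by
        have e : (v * ((y' : G) * v⁻¹ * (y' : G)⁻¹)) * (y' : G) = v * (a * x * a⁻¹) * v⁻¹ := by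
          rw [hyy]
          group
        rw [e]
        exact hDconj x hxP
      rw [hδu y' _ (U.mul_mem hvU hyU) hmem, F.π_mul _ hvU _ hyU, F.π_conj y' _ (U.inv_mem hvU),
        F.π_inv hvU, map_neg, sub_eq_add_neg]
    have hw2 : F.π v - w ∈ LinearMap.ker (F.ρ y' - 1) := by
      have h2 := hw y'
      rw [h3] at h2
      rw [LinearMap.mem_ker, LinearMap.sub_apply, Module.End.one_apply, map_sub]
      have h4 := sub_eq_zero.mpr h2
      rw [← neg_eq_zero, ← h4]
      abel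
    apply hw₀
    have e : F.π v = w + (F.π v - w) := by abel
    rw [e]
    exact Submodule.add_mem_sup hw1 hw2

end core

end Cfsg.Agent.Lib.Flavell.Enlarge
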